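import Cfsg.Agent.H574.Deg4.Wts

/-!
# Elements of order four without eigenvalue `-1` normalising an abelian group (helper574)

* `order_four` : `x` normalises the abelian group `A`, `x ^ 4 = 1`, `-1` is not an eigenvalue of `x`: `x ^ 2` centralises
  `A` and the commutators `[a, x]` are trivial on the fixed points of `x ^ 2`;
* `pow_eq_one_of_trace` : `T` of finite order prime to the characteristic, `rank (T - 1) ≤ 2`, `det T = 1`, the trace of `T`
  lies in the field of `q` elements: `T ^ (q ^ 2 - 1) = 1`.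
-/

set_option autoImplicit false

namespace Cfsg.Agent.H574.Deg4

open Module Cfsg.Agent.H189.Wt Cfsg.Agent.H189.FTRep

universe u v w

variable {k : Type u} {V : Type v} {G : Type w} [Field k] [AddCommGroup V] [Module k V] [Group G]

section four

variable [FiniteDimensional k V] (ρ : G →* End k V) {A : Subgroup G} {x : G}

omit [FiniteDimensional k V] in
theorem alt_sum_eq_zero (h4 : x ^ 4 = 1) (hm : ∀ v, ρ x v = -v → v = 0) (v : V) :
    v - ρ x v + ρ (x ^ 2) v - ρ (x ^ 3) v = 0 := by
  apply hm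
  rw [map_sub, map_add, map_sub, ← mul_apply', ← mul_apply', ← mul_apply', ← pow_succ', ← pow_succ', ← pow_two]
  have h5 : ρ (x ^ 4) v = v := by rw [h4, map_one, End.one_apply]
  show ρ x v - ρ (x ^ 2) v + ρ (x ^ 3) v - ρ (x ^ 4) v = _
  rw [h5]
  abel

omit [FiniteDimensional k V] in
theorem cw_two (hx : ∀ a ∈ A, x⁻¹ * a * x ∈ A) (h4 : x ^ 4 = 1) (hm : ∀ v, ρ x v = -v → v = 0) {χ : A → k} {v : V}
    (hv : v ≠ 0) (hχ : ∀ a : A, ρ a v = χ a • v) : (cw hx)^[2] χ = χ := by
  have hper : (cw hx)^[4] χ = χ := by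
    funext b
    obtain ⟨hb, e⟩ := cw_iterate_apply hx 4 χ b
    rw [e]
    congr 1
    apply Subtype.ext
    show (x ^ 4)⁻¹ * (b : G) * x ^ 4 = b
    rw [h4, inv_one, one_mul, mul_one]
  have hdvd : Function.minimalPeriod (cw hx) χ ∣ 2 ^ 2 := Function.IsPeriodicPt.minimalPeriod_dvd hper
  obtain ⟨e, he, he'⟩ := (Nat.dvd_prime_pow Nat.prime_two).1 hdvd
  have h0 : e = 0 ∨ e = 1 ∨ e = 2 := by omega
  have hiter := Function.iterate_minimalPeriod (f := cw hx) (x := χ)
  rcases h0 with rfl | rfl | rfl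
  · rw [he', pow_zero] at hiter
    rw [show (2 : ℕ) = 1 + 1 from rfl, Function.iterate_add_apply, hiter, hiter]
  · rwa [he', pow_one] at hiter
  · exfalso
    have hli := linearIndependent_of_wt (fun a : A => ρ a) (fun i : Fin 4 => ρ (x ^ (i : ℕ)) v)
      (fun i => (cw hx)^[(i : ℕ)] χ) (fun i j hij => by
        apply Fin.ext
        refine Function.iterate_injOn_Iio_minimalPeriod (f := cw hx) (x := χ) ?_ ?_ hij
        · rw [he']; exact i.2
        · rw [he']; exact j.2) (fun i => ne_zero ρ _ hv) (fun i a => cw_iterate_wt ρ hx hχ i a)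
    have h1 := alt_sum_eq_zero ρ h4 hm v
    have h2 := (Fintype.linearIndependent_iff.1 hli) ![1, -1, 1, -1] (by
      simp only [Fin.sum_univ_four, Matrix.cons_val_zero, Matrix.cons_val_one, Matrix.cons_val]
      rw [← h1]
      simp only [Fin.val_zero, pow_zero, map_one, End.one_apply, one_smul, Fin.val_one, pow_one, neg_smul,
        Fin.val_two]
      have : ((3 : Fin 4) : ℕ) = 3 := rfl
      rw [this]
      abel) 0
    simp at h2

omit [FiniteDimensional k V] in
theorem sq_neg (hx : ∀ a ∈ A, x⁻¹ * a * x ∈ A) (h4 : x ^ 4 = 1) (hm : ∀ v, ρ x v = -v → v = 0) {χ : A → k} {v : V}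
    (hv : v ≠ 0) (hχ : ∀ a : A, ρ a v = χ a • v) (hne : cw hx χ ≠ χ) : v + ρ (x ^ 2) v = 0 := by
  by_contra hcon
  have h2 := cw_two ρ hx h4 hm hv hχ
  have w2 : ∀ a : A, ρ a (v + ρ (x ^ 2) v) = χ a • (v + ρ (x ^ 2) v) := by
    intro a
    have h3 := cw_iterate_wt ρ hx hχ 2 a
    rw [h2] at h3
    rw [map_add, h3, hχ, smul_add]
  have hli := linearIndependent_of_wt (fun a : A => ρ a)
    (fun i : Fin 2 => ρ (x ^ (i : ℕ)) (v + ρ (x ^ 2) v)) (fun i => (cw hx)^[(i : ℕ)] χ) (by
      intro i j hij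
      by_contra hij'
      fin_cases i <;> fin_cases j
      · exact hij' rfl
      · exact hne hij.symm
      · exact hne hij
      · exact hij' rfl) (fun i => ne_zero ρ _ hcon) (fun i a => cw_iterate_wt ρ hx w2 i a)
  have h1 := alt_sum_eq_zero ρ h4 hm v
  have h5 := (Fintype.linearIndependent_iff.1 hli) ![1, -1] (by
    simp only [Fin.sum_univ_two, Matrix.cons_val_zero, Matrix.cons_val_one, Matrix.cons_val_fin_one]
    rw [← h1]
    simp only [Fin.val_zero, pow_zero, map_one, End.one_apply, one_smul, Fin.val_one, pow_one, neg_smul]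
    rw [map_add, ← mul_apply', ← pow_succ']
    abel) 0
  simp at h5

/-- **an element of order four without eigenvalue `-1`** -/
theorem order_four [IsAlgClosed k] (hinj : Function.Injective ρ) [Finite A] (hA : (Nat.card A : k) ≠ 0)
    (hab : ∀ a ∈ A, ∀ b ∈ A, a * b = b * a) (h2 : (2 : k) ≠ 0) (hx : ∀ a ∈ A, x⁻¹ * a * x ∈ A) (h4 : x ^ 4 = 1)
    (hm : ∀ v, ρ x v = -v → v = 0) :
    (∀ a ∈ A, (x ^ 2)⁻¹ * a * x ^ 2 = a) ∧
      ∀ a ∈ A, ∀ v, ρ (x ^ 2) v = v → ρ (a⁻¹ * (x⁻¹ * a * x)) v = v := by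
  constructor
  · intro a ha
    apply hinj
    apply eq_of_wt ρ A hA hab
    intro χ v hv hχ
    obtain ⟨h, e⟩ := cw_iterate_apply hx 2 χ ⟨a, ha⟩
    have h5 := hχ ⟨(x ^ 2)⁻¹ * a * x ^ 2, h⟩
    change ρ ((x ^ 2)⁻¹ * a * x ^ 2) v = _ at h5
    rw [h5, ← e, cw_two ρ hx h4 hm hv hχ]
    exact (hχ ⟨a, ha⟩).symm
  · intro a ha v hv
    have key : (ρ (a⁻¹ * (x⁻¹ * a * x)) - 1) * (1 + ρ (x ^ 2)) = 0 := by
      apply eq_of_wt ρ A hA hab
      intro χ v hv hχ
      rw [LinearMap.zero_apply, End.mul_apply, LinearMap.add_apply, End.one_apply]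
      by_cases hne : cw hx χ = χ
      · have h5 : ∀ w : V, (∀ a : A, ρ a w = χ a • w) → (ρ (a⁻¹ * (x⁻¹ * a * x)) - 1) w = 0 := by
          intro w hw
          by_cases hw0 : w = 0
          · rw [hw0, map_zero]
          have h6 : ρ (x⁻¹ * a * x) w = χ ⟨a, ha⟩ • w := by
            have h7 := hw ⟨x⁻¹ * a * x, hx a ha⟩
            have h8 := congrFun hne ⟨a, ha⟩
            change χ ⟨x⁻¹ * a * x, hx a ha⟩ = _ at h8
            rw [h8] at h7
            exact h7
          have h9 : ρ a w = χ ⟨a, ha⟩ • w := hw ⟨a, ha⟩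
          rw [LinearMap.sub_apply, End.one_apply, mul_apply', h6, ← h9, inv_apply, sub_self]
        rw [map_add, h5 v hχ, h5 _ (fun b => ?_), add_zero]
        have h3 := cw_iterate_wt ρ hx hχ 2 b
        rwa [cw_two ρ hx h4 hm hv hχ] at h3
      · rw [sq_neg ρ hx h4 hm hv hχ hne, map_zero]
    have h5 := LinearMap.congr_fun key v
    rw [End.mul_apply, LinearMap.add_apply, End.one_apply, hv, LinearMap.zero_apply, ← two_smul k v, map_smul] at h5
    rcases smul_eq_zero.1 h5 with h6 | h6
    · exact absurd h6 h2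
    · rw [LinearMap.sub_apply, End.one_apply] at h6
      exact sub_eq_zero.1 h6

end four

/-- an eigenbasis -/
theorem exists_eigenbasis [IsAlgClosed k] [FiniteDimensional k V] (T : End k V) {m : ℕ} (hT : T ^ m = 1)
    (hm : (m : k) ≠ 0) : ∃ (b : Basis (Fin (finrank k V)) k V) (l : Fin (finrank k V) → k), ∀ i, T (b i) = l i • b i := by
  have hss : T.IsSemisimple := by
    apply Module.End.isSemisimple_of_squarefree_aeval_eq_zero (p := (Polynomial.X ^ m - 1 : Polynomial k))
    · exact (Polynomial.X_pow_sub_one_separable_iff.2 hm).squarefree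
    · rw [map_sub, map_pow, Polynomial.aeval_X, map_one, hT, sub_self]
  have hspan : ⊤ ≤ Submodule.span k {v : V | ∃ μ : k, T v = μ • v} := by
    rw [← Module.End.iSup_maxGenEigenspace_eq_top T]
    refine iSup_le fun μ => ?_
    rw [hss.isFinitelySemisimple.maxGenEigenspace_eq_eigenspace]
    intro v hv
    exact Submodule.subset_span ⟨μ, Module.End.mem_eigenspace_iff.1 hv⟩
  let b0 := Basis.ofSpan hspan
  have hsub := Basis.ofSpan_subset hspan
  have : Fintype ((linearIndepOn_empty k id).extend (Set.empty_subset {v : V | ∃ μ : k, T v = μ • v})) :=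
    FiniteDimensional.fintypeBasisIndex b0
  let e := Fintype.equivFinOfCardEq (finrank_eq_card_basis b0).symm
  have h1 : ∀ i, ∃ μ : k, T (b0 i) = μ • b0 i := fun i => hsub ⟨i, rfl⟩
  choose l hl using h1
  refine ⟨b0.reindex e, fun i => l (e.symm i), fun i => ?_⟩
  rw [Basis.reindex_apply]
  exact hl _

/-- **elements of small rank with trace in the field of `q` elements** -/
theorem pow_eq_one_of_trace [IsAlgClosed k] [FiniteDimensional k V] {p e : ℕ} [Fact p.Prime] [CharP k p] (T : End k V)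
    {m : ℕ} (hT : T ^ m = 1) (hm : (m : k) ≠ 0) (hr : finrank k (LinearMap.range (T - 1)) ≤ 2)
    (hdet : LinearMap.det T = 1) (htr : (LinearMap.trace k V T) ^ (p ^ e) = LinearMap.trace k V T) :
    T ^ ((p ^ e) ^ 2 - 1) = 1 := by
  classical
  obtain ⟨b, l, hl⟩ := exists_eigenbasis T hT hm
  have hmat : LinearMap.toMatrix b b T = Matrix.diagonal l := by
    ext i j
    rw [LinearMap.toMatrix_apply, hl, map_smul, Finsupp.smul_apply, Basis.repr_self, Matrix.diagonal_apply,
      Finsupp.single_apply, smul_eq_mul]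
    by_cases h : i = j
    · subst h; simp
    · simp [h, Ne.symm h]
  have h1 : ∏ i, l i = 1 := by
    rw [← Matrix.det_diagonal, ← hmat, LinearMap.det_toMatrix, hdet]
  have h2 : LinearMap.trace k V T = ∑ i, l i := by
    rw [LinearMap.trace_eq_matrix_trace k b, hmat, Matrix.trace_diagonal]
  let S : Finset (Fin (finrank k V)) := Finset.univ.filter fun i => l i ≠ 1
  have hS : S.card ≤ 2 := by
    refine le_trans ?_ hr
    have hli : LinearIndependent k (fun i : S => b i) := b.linearIndependent.comp _ Subtype.val_injective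
    have hmem : ∀ i : S, b i ∈ LinearMap.range (T - 1) := by
      intro i
      have hi : l i ≠ 1 := (Finset.mem_filter.1 i.2).2
      refine ⟨(l i - 1)⁻¹ • b i, ?_⟩
      rw [map_smul, LinearMap.sub_apply, End.one_apply, hl]
      have h3 : l (i : Fin (finrank k V)) • b i - b i = (l i - 1) • b i := by rw [sub_smul, one_smul]
      rw [h3, smul_smul, inv_mul_cancel₀ (sub_ne_zero.2 hi), one_smul]
    have hli' : LinearIndependent k (fun i : S => (⟨b i, hmem i⟩ : LinearMap.range (T - 1))) :=
      LinearIndependent.of_comp (LinearMap.range (T - 1)).subtype hli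
    have := hli'.fintype_card_le_finrank
    rwa [Fintype.card_coe] at this
  have hprod : ∏ i ∈ S, l i = 1 := by
    rw [← h1]
    refine Finset.prod_subset (Finset.subset_univ _) fun i _ hi => ?_
    by_contra h
    exact hi (Finset.mem_filter.2 ⟨Finset.mem_univ _, h⟩)
  have hsum : LinearMap.trace k V T = (Sᶜ.card : k) + ∑ i ∈ S, l i := by
    rw [h2, ← Finset.sum_add_sum_compl S, add_comm]
    congr 1
    rw [Finset.sum_congr rfl (g := fun _ => (1 : k)), Finset.sum_const, nsmul_eq_mul, mul_one]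
    intro i hi
    by_contra h
    exact (Finset.mem_compl.1 hi) (Finset.mem_filter.2 ⟨Finset.mem_univ _, h⟩)
  have hq : ∀ a c : k, (a + c) ^ (p ^ e) = a ^ (p ^ e) + c ^ (p ^ e) := fun a c => add_pow_char_pow a c p e
  have hqn : ∀ n : ℕ, ((n : k)) ^ (p ^ e) = n := by
    intro n
    induction n with
    | zero =>
      rw [Nat.cast_zero, zero_pow]
      exact (pow_pos (Fact.out : p.Prime).pos _).ne'
    | succ n ih => rw [Nat.cast_succ, hq, ih, one_pow]
  rw [hsum, hq, hqn] at htr
  have htr' : (∑ i ∈ S, l i) ^ (p ^ e) = ∑ i ∈ S, l i := add_left_cancel htr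
  have key : ∀ i, l i ^ ((p ^ e) ^ 2 - 1) = 1 := by
    intro i
    by_cases hi : l i = 1
    · rw [hi, one_pow]
    have hiS : i ∈ S := Finset.mem_filter.2 ⟨Finset.mem_univ _, hi⟩
    have h0 : 1 ≤ S.card := Finset.card_pos.2 ⟨i, hiS⟩
    rcases Nat.lt_or_ge S.card 2 with h3 | h3
    · have h4 : S.card = 1 := by omega
      obtain ⟨j, hj⟩ := Finset.card_eq_one.1 h4
      rw [hj, Finset.mem_singleton] at hiS
      rw [hj, Finset.prod_singleton, ← hiS] at hprod
      exact absurd hprod hi
    · have h4 : S.card = 2 := le_antisymm hS h3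
      obtain ⟨a, c, hac, hSac⟩ := Finset.card_eq_two.1 h4
      rw [hSac, Finset.prod_pair hac] at hprod
      rw [hSac, Finset.sum_pair hac, hq] at htr'
      have h5 : l a ≠ 0 := left_ne_zero_of_mul_eq_one hprod
      have h6 : l c ≠ 0 := right_ne_zero_of_mul_eq_one hprod
      have h7 : (l a) ^ (p ^ e) * (l c) ^ (p ^ e) = 1 := by rw [← mul_pow, hprod, one_pow]
      have h8 : ((l a) ^ (p ^ e) - l a) * ((l a) ^ (p ^ e) - l c) = 0 := by
        have h9 : (l c) ^ (p ^ e) = l a + l c - (l a) ^ (p ^ e) := by rw [← htr']; ring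
        rw [h9] at h7
        have h10 : ((l a) ^ (p ^ e) - l a) * ((l a) ^ (p ^ e) - l c) =
          l a * l c - (l a) ^ (p ^ e) * (l a + l c - (l a) ^ (p ^ e)) := by ring
        rw [h10, hprod, h7, sub_self]
      have hpos : 0 < p ^ e := pow_pos (Fact.out : p.Prime).pos _
      -- both eigenvalues have order dividing `q ^ 2 - 1`
      have key2 : l a ^ ((p ^ e) ^ 2) = l a := by
        rw [pow_two, pow_mul]
        rcases mul_eq_zero.1 h8 with h9 | h9
        · rw [sub_eq_zero.1 h9, sub_eq_zero.1 h9]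
        · have h10 := sub_eq_zero.1 h9
          rw [h10]
          rw [h10] at h7
          -- `l c * l c ^ q = 1`
          have h11 : l c * (l c) ^ (p ^ e) = l c * l a := by rw [h7, mul_comm, hprod]
          exact mul_left_cancel₀ h6 h11
      have key3 : l c ^ ((p ^ e) ^ 2) = l c := by
        have h9 : (l a * l c) ^ ((p ^ e) ^ 2) = l a * l c := by rw [hprod, one_pow]
        rw [mul_pow, key2] at h9
        exact mul_left_cancel₀ h5 h9
      have key4 : l i ^ ((p ^ e) ^ 2) = l i := by
        rw [hSac, Finset.mem_insert, Finset.mem_singleton] at hiS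
        rcases hiS with rfl | rfl
        · exact key2
        · exact key3
      have h9 : l i ≠ 0 := by
        rw [hSac, Finset.mem_insert, Finset.mem_singleton] at hiS
        rcases hiS with rfl | rfl
        · exact h5
        · exact h6
      have h10 : l i ^ ((p ^ e) ^ 2 - 1) * l i = 1 * l i := by
        rw [← pow_succ, Nat.sub_add_cancel (Nat.one_le_iff_ne_zero.2 (by positivity)), key4, one_mul]
      exact mul_right_cancel₀ h9 h10
  apply b.ext
  intro i
  have h3 : ∀ j : ℕ, (T ^ j) (b i) = l i ^ j • b i := by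
    intro j
    induction j with
    | zero => simp
    | succ j ih => rw [pow_succ', End.mul_apply, ih, map_smul, hl, smul_smul, pow_succ]
  rw [h3, key, one_smul, End.one_apply]

end Cfsg.Agent.H574.Deg4
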