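import Cfsg.Agent.H574.Deg4.PZ
import Cfsg.Agent.H553.GoodPZ
import Cfsg.Agent.Blocks.CentralSylow

/-!
# `Good π S` for classical groups with a small semisimple element in `π` (helper574)

* `case_one` : `f : G → S` surjective with scalar kernel, `ρ : G → GL_n(K)` faithful, `z ∈ G` of prime order `t ≥ 5`, `t ∈ π`,
  `rank (z - 1) ≤ 2`, `3`, `char K ∉ π`: `Good π S` if `S` has a Hall `π`-subgroup.
-/

set_option autoImplicit false

namespace Cfsg.Agent.H574.Deg4

open Module Matrix
open Subgroup (center closure zpowers)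
open Cfsg.Agent.H988.CPi Cfsg.Agent.H553.ExtRed Cfsg.Agent.H560.HallKey

section Rank

variable {K L : Type*} [Field K] [Field L] (f : K →+* L) {m n : Type*} [Fintype m] [Fintype n]

theorem finrank_range_map (A : Matrix m n K) :
    finrank L (LinearMap.range (A.map f).mulVecLin) ≤ A.rank := by
  classical
  let b := Module.finBasis K (LinearMap.range A.mulVecLin)
  let u : Fin (finrank K (LinearMap.range A.mulVecLin)) → (m → L) := fun i j => f ((b i : m → K) j)
  have hle : LinearMap.range (A.map f).mulVecLin ≤ Submodule.span L (Set.range u) := by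
    rw [Matrix.range_mulVecLin, Submodule.span_le]
    rintro _ ⟨j, rfl⟩
    have h1 : A.col j ∈ LinearMap.range A.mulVecLin := by
      rw [Matrix.range_mulVecLin]
      exact Submodule.subset_span ⟨j, rfl⟩
    have h2 := b.sum_repr ⟨A.col j, h1⟩
    have h3 : (A.map f).col j = ∑ i, f (b.repr ⟨A.col j, h1⟩ i) • u i := by
      ext x
      have h4 := congrArg (fun v : LinearMap.range A.mulVecLin => f ((v : m → K) x)) h2
      simp only [Submodule.coe_sum, Submodule.coe_smul, Finset.sum_apply, Pi.smul_apply, smul_eq_mul, map_sum, map_mul] at h4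
      simp only [Finset.sum_apply, Pi.smul_apply, smul_eq_mul]
      rw [h4]
      rfl
    rw [h3]
    exact Submodule.sum_mem _ fun i _ => Submodule.smul_mem _ _ (Submodule.subset_span ⟨i, rfl⟩)
  refine (Submodule.finrank_mono hle).trans ?_
  refine (finrank_range_le_card u).trans ?_
  rw [Fintype.card_fin]
  exact le_refl _

end Rank

/-- a group generated by `r'`-elements modulo whose centre is an `r'`-group is an `r'`-group -/
theorem not_dvd_of_central {J : Type*} [Group J] [Finite J] {r : ℕ} [hr' : Fact r.Prime] (N : Subgroup J) [N.Normal]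
    (hN : N ≤ center J) (hr : ¬ r ∣ N.index) (S : Set J) (hS : ∀ z ∈ S, ¬ r ∣ orderOf z)
    (hgen : closure S = ⊤) : ¬ r ∣ Nat.card J := by
  obtain ⟨P⟩ : Nonempty (Sylow r J) := inferInstance
  have hP : (P : Subgroup J) ≤ center J := by
    intro x hx
    apply hN
    rw [← QuotientGroup.eq_one_iff, ← orderOf_eq_one_iff]
    obtain ⟨a, ha⟩ := (IsPGroup.iff_orderOf.1 P.2) ⟨x, hx⟩
    have h1 : orderOf ((x : J) : J ⧸ N) ∣ r ^ a := by
      rw [← ha, ← Subgroup.orderOf_coe]
      exact orderOf_map_dvd (QuotientGroup.mk' N) x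
    have h2 : orderOf ((x : J) : J ⧸ N) ∣ N.index := by
      rw [Subgroup.index]
      exact orderOf_dvd_natCard _
    have h3 : Nat.Coprime (r ^ a) N.index :=
      Nat.Coprime.pow_left _ ((Nat.Prime.coprime_iff_not_dvd hr'.out).2 hr)
    exact Nat.eq_one_of_dvd_coprimes h3 h1 h2
  obtain ⟨C, -, -, hC, hmem⟩ := Cfsg.Agent.Blocks.CentralSylow.exists_complement P hP
  have hCt : C = ⊤ := by
    rw [eq_top_iff, ← hgen, Subgroup.closure_le]
    intro z hz
    exact (hmem z).2 (hS z hz)
  rw [hCt, Subgroup.card_top] at hC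
  exact (Nat.Prime.coprime_iff_not_dvd hr'.out).1 hC.symm

/-- `PZ` is invariant under automorphisms -/
theorem pz_aut {S : Type*} [Group S] {π : Set ℕ} {t : ℕ} {x : S} (h : PZ π t x) (φ : MulAut S) : PZ π t (φ x) := by
  intro g hg
  have h1 : (closure {φ x, g * φ x * g⁻¹} : Subgroup S) = (closure {x, φ.symm g * x * (φ.symm g)⁻¹}).map φ.toMonoidHom := by
    rw [MonoidHom.map_closure, Set.image_pair]
    have h2 : φ.toMonoidHom (φ.symm g * x * (φ.symm g)⁻¹) = g * φ x * g⁻¹ := by
      show φ (φ.symm g * x * (φ.symm g)⁻¹) = _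
      rw [map_mul, map_mul, map_inv, MulEquiv.apply_symm_apply]
    rw [h2]
    rfl
  rw [h1] at hg ⊢
  rw [Subgroup.card_map_of_injective φ.injective] at hg
  exact (h _ hg).map _

/-- **case (i)** -/
theorem case_one {π : Set ℕ} {K : Type*} [Field K] {p : ℕ} [CharP K p] (hp : p.Prime)
    {ι : Type*} [Fintype ι] [DecidableEq ι] {G : Type*} [Group G] [Finite G] (ρ : G →* Matrix ι ι K)
    (hρ : Function.Injective ρ) {S : Type*} [Group S] [Finite S] [IsSimpleGroup S] (hna : ¬ IsMulCommutative S)
    (f : G →* S) (hf : Function.Surjective f) (hker : ∀ z ∈ f.ker, ∃ c : K, ρ z = c • 1)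
    (h3 : 3 ∉ π) (hpπ : p ∉ π) {t : ℕ} (ht : t.Prime) (htπ : t ∈ π) (h5 : 5 ≤ t)
    {z : G} (hz : orderOf z = t) (hr : (ρ z - 1).rank ≤ 2) (hfz : f z ≠ 1)
    (H : Subgroup S) (hH : Cfsg.IsPiHall π H) : Good π S := by
  classical
  have htf : Fact t.Prime := ⟨ht⟩
  have hzt : z ^ t = 1 := by rw [← hz]; exact pow_orderOf_eq_one z
  refine good_of_PZ_aut hna htπ (z := f z) (pz_aut ?_) hfz ?_ H hH
  · intro g hg
    obtain ⟨g, rfl⟩ := hf g
    set z' : G := g * z * g⁻¹ with hz'
    have hz't : z' ^ t = 1 := by rw [hz', conj_pow, hzt, mul_one, mul_inv_cancel]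
    have hoz' : orderOf z' = t := by
      rw [hz', ← hz]
      exact orderOf_injective (MulAut.conj g).toMonoidHom (MulAut.conj g).injective z
    set J : Subgroup G := closure {z, z'} with hJ
    have hJm : (closure {f z, f g * f z * (f g)⁻¹} : Subgroup S) = J.map f := by
      rw [hJ, MonoidHom.map_closure, Set.image_pair, hz', map_mul, map_mul, map_inv]
    rw [hJm] at hg ⊢
    have hzJ : z ∈ J := Subgroup.subset_closure (Or.inl rfl)
    have hz'J : z' ∈ J := Subgroup.subset_closure (Or.inr rfl)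
    let z₁ : J := ⟨z, hzJ⟩
    let z₁' : J := ⟨z', hz'J⟩
    have hgenJ : closure {z₁, z₁'} = (⊤ : Subgroup J) := by
      apply Subgroup.map_injective J.subtype_injective
      rw [MonoidHom.map_closure, Set.image_pair, ← MonoidHom.range_eq_map, Subgroup.range_subtype]
      exact hJ.symm
    -- the kernel
    set fJ : J →* S := f.comp J.subtype with hfJ
    have hNc : fJ.ker ≤ center J := by
      intro x hx
      obtain ⟨c, hc⟩ := hker (x : G) hx
      rw [Subgroup.mem_center_iff]
      intro y
      apply Subtype.ext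
      apply hρ
      show ρ ((y : G) * (x : G)) = ρ ((x : G) * (y : G))
      rw [map_mul, map_mul, hc, mul_smul_comm, smul_mul_assoc, mul_one, one_mul]
    have hidx : fJ.ker.index = Nat.card (J.map f) := by
      rw [Subgroup.index_ker, hfJ, MonoidHom.range_comp, Subgroup.range_subtype]
    have hprime : ∀ r : ℕ, r.Prime → r ∉ π → ¬ r ∣ Nat.card J := by
      intro r hr hrπ
      have hrf : Fact r.Prime := ⟨hr⟩
      have hrt : r ≠ t := fun h => hrπ (h ▸ htπ)
      refine not_dvd_of_central fJ.ker hNc ?_ {z₁, z₁'} ?_ hgenJ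
      · rw [hidx]
        exact fun h => hrπ (hg r hr h)
      · have hno : ¬ r ∣ t := fun h => hrt ((Nat.prime_dvd_prime_iff_eq hr ht).1 h)
        rintro x (rfl | rfl)
        · rw [← Subgroup.orderOf_coe]
          show ¬ r ∣ orderOf z
          rwa [hz]
        · rw [← Subgroup.orderOf_coe]
          show ¬ r ∣ orderOf z'
          rwa [hoz']
    -- the representation over the algebraic closure
    let L := AlgebraicClosure K
    let σ : J →* End L (ι → L) :=
      (Matrix.toLinAlgEquiv' (R := L) (n := ι)).toMonoidHom.comp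
        (((algebraMap K L).mapMatrix : Matrix ι ι K →+* Matrix ι ι L).toMonoidHom.comp (ρ.comp J.subtype))
    have hσ : ∀ x : J, σ x = Matrix.toLin' ((ρ (x : G)).map (algebraMap K L)) := fun x => rfl
    have hσi : Function.Injective σ := by
      intro a b hab
      rw [hσ, hσ] at hab
      exact Subtype.ext (hρ (Matrix.map_injective (algebraMap K L).injective (Matrix.toLin'.injective hab)))
    have hσr : ∀ x : J, (ρ (x : G) - 1).rank ≤ 2 → finrank L (LinearMap.range (σ x - 1)) ≤ 2 := by
      intro x hx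
      refine le_trans ?_ hx
      have h1 : σ x - 1 = ((ρ (x : G) - 1).map (algebraMap K L)).mulVecLin := by
        rw [hσ, Matrix.map_sub _ (map_sub (algebraMap K L)), Matrix.map_one _ (map_zero _) (map_one _)]
        ext v
        simp
      rw [h1]
      exact finrank_range_map (algebraMap K L) _
    have hchar : (Nat.card J : L) ≠ 0 := by
      have : CharP L p := charP_of_injective_algebraMap (algebraMap K L).injective p
      intro h0
      exact hprime p hp hpπ ((CharP.cast_eq_zero_iff L p _).1 h0)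
    have hPJ : IsPGroup t J := by
      refine isPGroup_of_gen σ hσi (hprime 3 Nat.prime_three h3) hchar ht h5 (z := z₁) (z' := z₁') ⟨1, ?_⟩ ⟨1, ?_⟩
        (hσr z₁ hr) (hσr z₁' ?_) hgenJ
      · rw [pow_one]; exact Subtype.ext hzt
      · rw [pow_one]; exact Subtype.ext hz't
      · show (ρ z' - 1).rank ≤ 2
        have h1 : ρ z' - 1 = ρ g * (ρ z - 1) * ρ g⁻¹ := by
          rw [mul_sub, sub_mul, mul_one, ← map_mul, ← map_mul, ← map_mul, mul_inv_cancel, map_one]
        rw [h1]
        exact ((Matrix.rank_mul_le_left _ _).trans (Matrix.rank_mul_le_right _ _)).trans hr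
    exact hPJ.map f
  · refine IsPGroup.iff_orderOf.2 ?_
    rintro ⟨x, hx⟩
    obtain ⟨i, rfl⟩ := hx
    have h1 : (f z ^ i) ^ t = 1 := by
      rw [← zpow_natCast, ← _root_.zpow_mul, mul_comm, _root_.zpow_mul, zpow_natCast, ← map_pow, hzt, map_one, _root_.one_zpow]
    have h2 : orderOf (f z ^ i) ∣ t ^ 1 := by
      rw [pow_one]
      exact orderOf_dvd_of_pow_eq_one h1
    obtain ⟨j, -, hj⟩ := (Nat.dvd_prime_pow ht).1 h2
    refine ⟨j, ?_⟩
    rw [← Subgroup.orderOf_coe]
    exact hj

/-- `f z ≠ 1` -/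
theorem map_ne_one {K : Type*} [Field K] {ι : Type*} [Fintype ι] [DecidableEq ι] {G : Type*} [Group G]
    (ρ : G →* Matrix ι ι K) (hρ : Function.Injective ρ) {S : Type*} [Group S]
    (f : G →* S) (hker : ∀ z ∈ f.ker, ∃ c : K, ρ z = c • 1) {t : ℕ} (ht : t.Prime) (h5 : 5 ≤ t)
    {z : G} (hz : orderOf z = t) (hr : (ρ z - 1).rank ≤ 2) (hdet : (ρ z).det = 1) : f z ≠ 1 := by
  intro h1
  obtain ⟨c, hc⟩ := hker z h1
  have hz1 : z ≠ 1 := by
    intro h
    rw [h, orderOf_one] at hz
    omega
  have hc1 : c ≠ 1 := by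
    intro h
    apply hz1
    apply hρ
    rw [hc, h, one_smul, map_one]
  have hcard : Fintype.card ι ≤ 2 := by
    have h2 : ρ z - 1 = (c - 1) • (1 : Matrix ι ι K) := by rw [hc, sub_smul, one_smul]
    have h3 : IsUnit (ρ z - 1) := by
      rw [h2, Matrix.isUnit_iff_isUnit_det, Matrix.det_smul, Matrix.det_one, mul_one]
      exact (IsUnit.mk0 _ (sub_ne_zero.2 hc1)).pow _
    rw [Matrix.rank_of_isUnit _ h3] at hr
    exact hr
  have hct : c ^ t = 1 := by
    have h2 : ρ (z ^ t) = 1 := by rw [← hz, pow_orderOf_eq_one, map_one]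
    rw [map_pow, hc, smul_pow, one_pow] at h2
    by_contra hcon
    apply hz1
    have hne : Nonempty ι := by
      by_contra hemp
      rw [not_nonempty_iff] at hemp
      apply hz1
      apply hρ
      exact Subsingleton.elim _ _
    obtain ⟨i⟩ := hne
    exfalso
    apply hcon
    have h3 := congrFun (congrFun h2 i) i
    simpa using h3
  have hcn : c ^ Fintype.card ι = 1 := by
    rw [hc, Matrix.det_smul, Matrix.det_one, mul_one] at hdet
    exact hdet
  have hne : Fintype.card ι ≠ 0 := by
    intro h0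
    rw [Fintype.card_eq_zero_iff] at h0
    apply hz1
    apply hρ
    exact Subsingleton.elim _ _
  have h4 : orderOf c ∣ t := orderOf_dvd_of_pow_eq_one hct
  have h5' : orderOf c ∣ Fintype.card ι := orderOf_dvd_of_pow_eq_one hcn
  rcases (Nat.dvd_prime ht).1 h4 with h | h
  · exact hc1 (orderOf_eq_one_iff.1 h)
  · rw [h] at h5'
    have := Nat.le_of_dvd (Nat.pos_of_ne_zero hne) h5'
    omega

end Cfsg.Agent.H574.Deg4
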