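import Mathlib

/-!
# Class two groups modulo the centre (helper574)

`N` a subgroup of `G`, all commutators of `N` are `1` or the central involution `ε`, elements of `N` centralising `N` are
central in `G`. Then `|N / N ∩ Z(G)| ≠ 8`.
-/

set_option autoImplicit false

namespace Cfsg.Agent.H574.Deg4

open Subgroup
open scoped commutatorElement

variable {G : Type*} [Group G] {N : Subgroup G} {ε : G}

/-- the hypotheses -/
structure Cl (N : Subgroup G) (ε : G) : Prop where
  cen : ε ∈ center G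
  ne : ε ≠ 1
  sq : ε * ε = 1
  val : ∀ x ∈ N, ∀ y ∈ N, ⁅x, y⁆ = 1 ∨ ⁅x, y⁆ = ε
  two : ∀ x ∈ N, x * x ∈ center G
  ctr : ∀ x ∈ N, (∀ y ∈ N, x * y = y * x) → x ∈ center G

open Classical in
/-- the commutator as an element of `ZMod 2` -/
noncomputable def cm (x y : G) : ZMod 2 := if ⁅x, y⁆ = 1 then 0 else 1

namespace Cl

theorem cm_eq_zero {x y : G} : cm x y = 0 ↔ x * y = y * x := by
  unfold cm
  rw [← commutatorElement_eq_one_iff_mul_comm]
  by_cases h : ⁅x, y⁆ = 1
  · rw [if_pos h]; exact ⟨fun _ => h, fun _ => rfl⟩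
  · rw [if_neg h]; exact ⟨fun h1 => absurd h1 (by decide), fun h1 => absurd h1 h⟩

variable (h : Cl N ε)

include h

theorem comm_cen {x y : G} (hx : x ∈ N) (hy : y ∈ N) : ⁅x, y⁆ ∈ center G := by
  rcases h.val x hx y hy with h1 | h1
  · rw [h1]; exact one_mem _
  · rw [h1]; exact h.cen

theorem cm_mul {x y w : G} (hx : x ∈ N) (hy : y ∈ N) (hw : w ∈ N) : cm (x * y) w = cm x w + cm y w := by
  have h1 : ⁅x * y, w⁆ = ⁅y, w⁆ * ⁅x, w⁆ := by
    have h2 := mem_center_iff.1 (h.comm_cen hy hw) x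
    have h3 : ⁅x * y, w⁆ = x * ⁅y, w⁆ * x⁻¹ * ⁅x, w⁆ := by
      rw [commutatorElement_def, commutatorElement_def, commutatorElement_def]; group
    rw [h3, h2, mul_inv_cancel_right]
  unfold cm
  rw [h1]
  rcases h.val x hx w hw with h2 | h2 <;> rcases h.val y hy w hw with h3 | h3
  · rw [h2, h3, mul_one, if_pos rfl, add_zero]
  · rw [h2, h3, mul_one, if_pos rfl, if_neg h.ne, zero_add]
  · rw [h2, h3, one_mul, if_pos rfl, if_neg h.ne, add_zero]
  · rw [h2, h3, h.sq, if_pos rfl, if_neg h.ne]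
    decide

omit h in
theorem cm_self (x : G) : cm x x = 0 := cm_eq_zero.2 rfl

omit h in
theorem cm_symm (x y : G) : cm x y = cm y x := by
  have h1 : cm x y = 0 ↔ cm y x = 0 := by rw [cm_eq_zero, cm_eq_zero]; exact eq_comm
  have h2 : ∀ a b : ZMod 2, (a = 0 ↔ b = 0) → a = b := by decide
  exact h2 _ _ h1

omit h in
theorem cm_one {w : G} : cm (1 : G) w = 0 := by
  rw [cm_eq_zero, one_mul, mul_one]

theorem cm_pow {x w : G} (hx : x ∈ N) (hw : w ∈ N) (n : ℕ) : cm (x ^ n) w = (n : ZMod 2) * cm x w := by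
  induction n with
  | zero => rw [pow_zero, cm_one, Nat.cast_zero, zero_mul]
  | succ n ih => rw [pow_succ, h.cm_mul (pow_mem hx n) hx hw, ih, Nat.cast_succ, add_mul, one_mul]

omit h in
theorem cm_center {z w : G} (hz : z ∈ center G) : cm z w = 0 := cm_eq_zero.2 (mem_center_iff.1 hz w).symm

/-- the four commutators -/
noncomputable def four (x y u v : G) (g : G) : Fin 4 → ZMod 2 := ![cm g x, cm g y, cm g u, cm g v]

/-- adjust an element -/
theorem adjust {x y w : G} (hx : x ∈ N) (hy : y ∈ N) (hw : w ∈ N) (hxy : cm x y = 1) :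
    ∃ a b : ℕ, cm (w * (x ^ a * y ^ b)) x = 0 ∧ cm (w * (x ^ a * y ^ b)) y = 0 := by
  have key : ∀ a b : ℕ, cm (w * (x ^ a * y ^ b)) x = cm w x + (b : ZMod 2) ∧
      cm (w * (x ^ a * y ^ b)) y = cm w y + (a : ZMod 2) := by
    intro a b
    have hxa := pow_mem hx a
    have hyb := pow_mem hy b
    rw [h.cm_mul hw (mul_mem hxa hyb) hx, h.cm_mul hxa hyb hx, h.cm_mul hw (mul_mem hxa hyb) hy, h.cm_mul hxa hyb hy,
      h.cm_pow hx hx, h.cm_pow hy hx, h.cm_pow hx hy, h.cm_pow hy hy, cm_self, cm_self, cm_symm y x, hxy]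
    constructor <;> ring
  have h2 : ∀ a b : ZMod 2, ∃ m n : ℕ, a + (n : ZMod 2) = 0 ∧ b + (m : ZMod 2) = 0 := by
    intro a b
    refine ⟨b.val, a.val, ?_, ?_⟩
    · rw [ZMod.natCast_zmod_val]; revert a; decide
    · rw [ZMod.natCast_zmod_val]; revert b; decide
  obtain ⟨m, n, h3, h4⟩ := h2 (cm w x) (cm w y)
  exact ⟨m, n, by rw [(key m n).1, h3], by rw [(key m n).2, h4]⟩

theorem pow_coset {x : G} (hx : x ∈ N) (n : ℕ) : x ^ n ∈ center G ∨ x * x ^ n ∈ center G := by
  rcases Nat.even_or_odd n with ⟨k, rfl⟩ | ⟨k, rfl⟩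
  · left
    rw [← mul_two, mul_comm, pow_mul, pow_two]
    exact pow_mem (h.two x hx) k
  · right
    rw [← pow_succ', show 2 * k + 1 + 1 = 2 * (k + 1) by ring, pow_mul, pow_two]
    exact pow_mem (h.two x hx) (k + 1)

/-- **`|N / Z| ≠ 8`** -/
theorem card_ne_eight [Finite G] : Nat.card (N ⧸ (center G).subgroupOf N) ≠ 8 := by
  classical
  intro h8
  set Z' := (center G).subgroupOf N with hZ'
  have : Finite (N ⧸ Z') := inferInstance
  -- a noncentral element
  have hcard : ∀ (α : Type) [Fintype α] (f : α → N ⧸ Z'), Fintype.card α < 8 → ∃ c : N ⧸ Z', ∀ a, f a ≠ c := by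
    intro α _ f hα
    by_contra hcon
    push Not at hcon
    have := Nat.card_le_card_of_surjective f hcon
    rw [h8, Nat.card_eq_fintype_card] at this
    omega
  obtain ⟨c, hc⟩ := hcard Unit (fun _ => ((1 : N) : N ⧸ Z')) (by simp)
  obtain ⟨x, rfl⟩ := QuotientGroup.mk_surjective c
  have hxZ : (x : G) ∉ center G := by
    intro hx
    apply hc ()
    rw [QuotientGroup.eq]
    show (((1 : N)⁻¹ * x : N) : G) ∈ center G
    rwa [inv_one, one_mul]
  obtain ⟨y, hy, hxy⟩ : ∃ y ∈ N, cm (x : G) y = 1 := by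
    by_contra hcon
    push Not at hcon
    apply hxZ
    apply h.ctr _ x.2
    intro y hy
    have h1 := hcon y hy
    have h2 : ∀ a : ZMod 2, a ≠ 1 → a = 0 := by decide
    exact cm_eq_zero.1 (h2 _ h1)
  -- a second pair
  obtain ⟨c, hc2⟩ := hcard (Fin 2 × Fin 2)
    (fun p => (((x ^ (p.1 : ℕ) * (⟨y, hy⟩ : N) ^ (p.2 : ℕ) : N) : N ⧸ Z'))) (by simp)
  obtain ⟨w, rfl⟩ := QuotientGroup.mk_surjective c
  obtain ⟨a, b, ha, hb⟩ := h.adjust x.2 hy w.2 hxy
  set u : G := (w : G) * ((x : G) ^ a * y ^ b) with hu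
  have huN : u ∈ N := mul_mem w.2 (mul_mem (pow_mem x.2 a) (pow_mem hy b))
  have huZ : u ∉ center G := by
    intro hcen
    -- reduce the exponents
    have key : ∀ (i j : Fin 2), (x : G) ^ (i : ℕ) * x ^ a ∈ center G → y ^ (j : ℕ) * y ^ b ∈ center G → False := by
      intro i j hi hj
      apply hc2 (i, j)
      rw [QuotientGroup.eq]
      show ((x : G) ^ (i : ℕ) * y ^ (j : ℕ))⁻¹ * w ∈ center G
      -- work in the quotient by the centre
      have hmk : ∀ {g : G}, g ∈ center G ↔ (QuotientGroup.mk' (center G)) g = 1 := by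
        intro g
        rw [QuotientGroup.mk'_apply, QuotientGroup.eq_one_iff]
      have hcom : ∀ {g k : G}, g ∈ N → k ∈ N →
          (QuotientGroup.mk' (center G)) g * (QuotientGroup.mk' (center G)) k =
            (QuotientGroup.mk' (center G)) k * (QuotientGroup.mk' (center G)) g := by
        intro g k hg hk
        rw [← commutatorElement_eq_one_iff_mul_comm, ← map_commutatorElement, ← hmk]
        exact h.comm_cen hg hk
      rw [hmk] at hi hj hcen ⊢
      rw [hu] at hcen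
      simp only [map_mul, map_pow, map_inv] at hi hj hcen ⊢
      have c1 := hcom x.2 hy
      set X := (QuotientGroup.mk' (center G)) (x : G)
      set Y := (QuotientGroup.mk' (center G)) y
      set W := (QuotientGroup.mk' (center G)) (w : G)
      have e1 : X ^ a = (X ^ (i : ℕ))⁻¹ := eq_inv_of_mul_eq_one_right hi
      have e2 : Y ^ b = (Y ^ (j : ℕ))⁻¹ := eq_inv_of_mul_eq_one_right hj
      have e3 : W = (X ^ a * Y ^ b)⁻¹ := eq_inv_of_mul_eq_one_left hcen
      have c2 : Commute (X ^ (i : ℕ)) (Y ^ (j : ℕ)) := (show Commute X Y from c1).pow_pow _ _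
      have e4 : W = Y ^ (j : ℕ) * X ^ (i : ℕ) := by rw [e3, e1, e2, mul_inv_rev, inv_inv, inv_inv]
      rw [e4, ← c2.eq, inv_mul_cancel]
    have kx := h.pow_coset x.2 a
    have ky := h.pow_coset hy b
    rcases kx with kx | kx <;> rcases ky with ky | ky
    · exact key 0 0 (by simpa using kx) (by simpa using ky)
    · exact key 0 1 (by simpa using kx) (by simpa using ky)
    · exact key 1 0 (by simpa using kx) (by simpa using ky)
    · exact key 1 1 (by simpa using kx) (by simpa using ky)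
  obtain ⟨v₀, hv₀, huv₀⟩ : ∃ v ∈ N, cm u v = 1 := by
    by_contra hcon
    push Not at hcon
    apply huZ
    apply h.ctr _ huN
    intro y hy
    have h1 := hcon y hy
    have h2 : ∀ a : ZMod 2, a ≠ 1 → a = 0 := by decide
    exact cm_eq_zero.1 (h2 _ h1)
  obtain ⟨a', b', ha', hb'⟩ := h.adjust x.2 hy hv₀ hxy
  set v : G := v₀ * ((x : G) ^ a' * y ^ b') with hv
  have hvN : v ∈ N := mul_mem hv₀ (mul_mem (pow_mem x.2 a') (pow_mem hy b'))
  have hvu : cm v u = 1 := by
    have hxa := pow_mem x.2 a'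
    have hyb := pow_mem hy b'
    rw [hv, h.cm_mul hv₀ (mul_mem hxa hyb) huN, h.cm_mul hxa hyb huN, h.cm_pow x.2 huN, h.cm_pow hy huN,
      cm_symm (x : G) u, cm_symm y u, ha, hb, cm_symm v₀ u, huv₀]
    ring
  -- the surjection onto `(ZMod 2)⁴`
  have hsurj : Function.Surjective (fun c : N ⧸ Z' => four (x : G) y u v (c.out : G)) := by
    intro t
    let g : N := (⟨y, hy⟩ : N) ^ (t 0).val * x ^ (t 1).val * ((⟨v, hvN⟩ : N) ^ (t 2).val * (⟨u, huN⟩ : N) ^ (t 3).val)
    refine ⟨(g : N ⧸ Z'), ?_⟩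
    obtain ⟨z, hz⟩ := QuotientGroup.mk_out_eq_mul Z' g
    have hzc : ((z : N) : G) ∈ center G := z.2
    have hgN : (g : G) ∈ N := g.2
    have hadj : ∀ s ∈ N, cm (((g : N ⧸ Z').out : N) : G) s = cm (g : G) s := by
      intro s hs
      rw [hz]
      show cm ((g : G) * ((z : N) : G)) s = _
      rw [h.cm_mul hgN (z : N).2 hs, cm_center hzc, add_zero]
    have hg : (g : G) = y ^ (t 0).val * (x : G) ^ (t 1).val * (v ^ (t 2).val * u ^ (t 3).val) := rfl
    have m0 := pow_mem hy (t 0).val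
    have m1 := pow_mem x.2 (t 1).val
    have m2 := pow_mem hvN (t 2).val
    have m3 := pow_mem huN (t 3).val
    have hval : ∀ s ∈ N, cm (g : G) s = t 0 * cm y s + t 1 * cm (x : G) s + (t 2 * cm v s + t 3 * cm u s) := by
      intro s hs
      rw [hg, h.cm_mul (mul_mem m0 m1) (mul_mem m2 m3) hs, h.cm_mul m0 m1 hs, h.cm_mul m2 m3 hs, h.cm_pow hy hs,
        h.cm_pow x.2 hs, h.cm_pow hvN hs, h.cm_pow huN hs, ZMod.natCast_zmod_val, ZMod.natCast_zmod_val,
        ZMod.natCast_zmod_val, ZMod.natCast_zmod_val]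
    have hyx : cm y (x : G) = 1 := by rw [cm_symm]; exact hxy
    have hxu : cm (x : G) u = 0 := by rw [cm_symm]; exact ha
    have hyu : cm y u = 0 := by rw [cm_symm]; exact hb
    have hxv : cm (x : G) v = 0 := by rw [cm_symm]; exact ha'
    have hyv : cm y v = 0 := by rw [cm_symm]; exact hb'
    have huv : cm u v = 1 := by rw [cm_symm]; exact hvu
    funext i
    show four (x : G) y u v (((g : N ⧸ Z').out : N) : G) i = t i
    unfold four
    fin_cases i
    · show cm _ (x : G) = t 0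
      rw [hadj _ x.2, hval _ x.2, hyx, cm_self, ha', ha]; ring
    · show cm _ y = t 1
      rw [hadj _ hy, hval _ hy, cm_self, hxy, hb', hb]; ring
    · show cm _ u = t 2
      rw [hadj _ huN, hval _ huN, hyu, hxu, hvu, cm_self]; ring
    · show cm _ v = t 3
      rw [hadj _ hvN, hval _ hvN, hyv, hxv, cm_self, huv]; ring
  have h1 := Nat.card_le_card_of_surjective _ hsurj
  rw [h8, Nat.card_eq_fintype_card, Fintype.card_fun, Fintype.card_fin, ZMod.card] at h1
  omega

end Cl

end Cfsg.Agent.H574.Deg4
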