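import Cfsg.Agent.H574.Deg4.Sz
import Cfsg.Agent.H574.Deg4.Wts
import Cfsg.Agent.H574.Deg4.Eight

/-!
# Linear groups of degree at most four have no Suzuki section (helper574)

* `exists_cl` : the commutators of a subgroup which is elementary abelian modulo scalars;
* `no_frob` : the quotient of a linear group of degree at most four by its centre (scalars) has no Frobenius subgroup
  `2 ^ m : C`, `m` odd, `m ≥ 3`, `|C|` prime to six, transitive.
-/

set_option autoImplicit false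

namespace Cfsg.Agent.H574.Deg4

open Module Cfsg.Agent.H189.Wt Cfsg.Agent.H189.FTRep
open Subgroup (center)
open scoped commutatorElement

universe u v w

variable {k : Type u} {V : Type v} {G : Type w} [Field k] [AddCommGroup V] [Module k V] [Group G]

/-- commutators modulo scalars -/
theorem exists_cl [Nontrivial V] (ρ : G →* End k V) (hinj : Function.Injective ρ) (N : Subgroup G)
    (hsc : ∀ z ∈ center G, ∃ c : k, ∀ v, ρ z v = c • v)
    (hcomm : ∀ x ∈ N, ∀ y ∈ N, ⁅x, y⁆ ∈ center G) (htwo : ∀ x ∈ N, x * x ∈ center G)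
    (hZ : ∀ x ∈ N, (∀ y ∈ N, x * y = y * x) → x ∈ center G) (hna : ∃ x ∈ N, ∃ y ∈ N, x * y ≠ y * x) :
    ∃ ε, Cl N ε := by
  obtain ⟨v, hv⟩ := exists_ne (0 : V)
  -- a central involution acts as `-1`
  have key : ∀ x ∈ N, ∀ y ∈ N, ⁅x, y⁆ * ⁅x, y⁆ = 1 := by
    intro x hx y hy
    have h1 : ⁅x * x, y⁆ = ⁅x, y⁆ * ⁅x, y⁆ := by
      have h2 := Subgroup.mem_center_iff.1 (hcomm x hx y hy) x
      have h3 : ⁅x * x, y⁆ = x * ⁅x, y⁆ * x⁻¹ * ⁅x, y⁆ := by
        rw [commutatorElement_def, commutatorElement_def]; group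
      rw [h3, h2, mul_inv_cancel_right]
    rw [← h1, commutatorElement_eq_one_iff_mul_comm]
    exact (Subgroup.mem_center_iff.1 (htwo x hx) y).symm
  have key2 : ∀ z ∈ center G, z * z = 1 → z = 1 ∨ ρ z = -1 := by
    intro z hz hz2
    obtain ⟨c, hc⟩ := hsc z hz
    have h1 : c * c = 1 := by
      have h2 : ρ (z * z) v = (c * c) • v := by rw [mul_apply', hc, hc, smul_smul]
      rw [hz2, map_one, End.one_apply] at h2
      have h3 : (c * c - 1) • v = 0 := by rw [sub_smul, one_smul, ← h2, sub_self]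
      rcases smul_eq_zero.1 h3 with h4 | h4
      · exact sub_eq_zero.1 h4
      · exact absurd h4 hv
    rcases mul_self_eq_one_iff.1 h1 with h2 | h2
    · left
      apply hinj
      ext w
      rw [hc, h2, one_smul, map_one, End.one_apply]
    · right
      ext w
      rw [hc, h2, neg_smul, one_smul]
      rfl
  obtain ⟨x, hx, y, hy, hxy⟩ := hna
  have hne : ⁅x, y⁆ ≠ 1 := fun h => hxy (commutatorElement_eq_one_iff_mul_comm.1 h)
  have hε := (key2 _ (hcomm x hx y hy) (key x hx y hy)).resolve_left hne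
  refine ⟨⁅x, y⁆, hcomm x hx y hy, hne, key x hx y hy, ?_, htwo, hZ⟩
  intro a ha b hb
  rcases key2 _ (hcomm a ha b hb) (key a ha b hb) with h1 | h1
  · exact Or.inl h1
  · exact Or.inr (hinj (by rw [h1, hε]))

/-- a power of `2` with odd exponent at most `16` -/
theorem pow_odd_le {m : ℕ} (hm : Odd m) (h3 : 3 ≤ m) (h : 2 ^ m ≤ 16) : m = 3 := by
  by_contra hne
  have h4 : 4 ≤ m := by omega
  have h5 : m ≠ 4 := by
    rintro rfl
    exact absurd hm (by decide)
  have h6 : 2 ^ 5 ≤ 2 ^ m := Nat.pow_le_pow_right (by norm_num) (by omega)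
  omega

/-- **no Frobenius subgroup modulo scalars** -/
theorem no_frob [IsAlgClosed k] [FiniteDimensional k V] [Nontrivial V] [Finite G] (ρ : G →* End k V)
    (hinj : Function.Injective ρ) (hd : finrank k V ≤ 4) (hk : (Nat.card G : k) ≠ 0)
    (hsc : ∀ z ∈ center G, ∃ c : k, ∀ v, ρ z v = c • v) (A : Subgroup (G ⧸ center G)) (c : G ⧸ center G)
    (h : Frob A c) : False := by
  classical
  set mk : G →* G ⧸ center G := QuotientGroup.mk' (center G) with hmk
  have hsurj : Function.Surjective mk := QuotientGroup.mk'_surjective _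
  have hker : ∀ g, mk g = 1 ↔ g ∈ center G := fun g => QuotientGroup.eq_one_iff g
  obtain ⟨c₀, rfl⟩ := hsurj c
  set B : Subgroup G := A.comap mk with hB
  have hBk : (Nat.card B : k) ≠ 0 := by
    intro h0
    apply hk
    obtain ⟨e, he⟩ := Subgroup.card_subgroup_dvd_card B
    rw [he, Nat.cast_mul, h0, zero_mul]
  -- `A` is abelian
  have hAab : ∀ a ∈ A, ∀ b ∈ A, a * b = b * a := by
    intro a ha b hb
    have h1 := h.sq _ (mul_mem ha hb)
    have h2 : a⁻¹ = a := inv_eq_of_mul_eq_one_right (h.sq a ha)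
    have h3 : b⁻¹ = b := inv_eq_of_mul_eq_one_right (h.sq b hb)
    calc a * b = (a * b)⁻¹ := (inv_eq_of_mul_eq_one_right h1).symm
      _ = b * a := by rw [mul_inv_rev, h2, h3]
  obtain ⟨m, hmodd, hm3, hmcard⟩ := h.card
  have h8 : 8 ≤ Nat.card A := by
    rw [hmcard]
    calc 8 = 2 ^ 3 := by norm_num
      _ ≤ 2 ^ m := Nat.pow_le_pow_right (by norm_num) hm3
  -- powers of `c` normalise `A`
  have hpow : ∀ (i : ℕ), ∀ a ∈ A, mk c₀ ^ i * a * (mk c₀ ^ i)⁻¹ ∈ A := by
    intro i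
    induction i with
    | zero => intro a ha; rwa [pow_zero, one_mul, inv_one, mul_one]
    | succ i ih =>
      intro a ha
      have h1 := h.nrm _ (ih a ha)
      have h2 : mk c₀ ^ (i + 1) * a * (mk c₀ ^ (i + 1))⁻¹ = mk c₀ * (mk c₀ ^ i * a * (mk c₀ ^ i)⁻¹) * (mk c₀)⁻¹ := by
        rw [pow_succ']; group
      rw [h2]
      exact h1
  have hinv : ∀ a ∈ A, (mk c₀)⁻¹ * a * mk c₀ ∈ A := by
    intro a ha
    have h1 : (mk c₀)⁻¹ = mk c₀ ^ (orderOf (mk c₀) - 1) := by
      rw [eq_comm, eq_inv_iff_mul_eq_one, ← pow_succ, Nat.sub_add_cancel (orderOf_pos _), pow_orderOf_eq_one]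
    have h2 := hpow (orderOf (mk c₀) - 1) a ha
    rw [← h1, inv_inv] at h2
    exact h2
  have hBpow : ∀ (i : ℕ), ∀ b ∈ B, c₀ ^ i * b * (c₀ ^ i)⁻¹ ∈ B := by
    intro i b hb
    show mk (c₀ ^ i * b * (c₀ ^ i)⁻¹) ∈ A
    rw [map_mul, map_mul, map_inv, map_pow]
    exact hpow i _ hb
  have hBinv : ∀ b ∈ B, c₀⁻¹ * b * c₀ ∈ B := by
    intro b hb
    show mk (c₀⁻¹ * b * c₀) ∈ A
    rw [map_mul, map_mul, map_inv]
    exact hinv _ hb
  -- `B` is not abelian
  have hna : ∃ x ∈ B, ∃ y ∈ B, x * y ≠ y * x := by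
    by_contra hcon
    push Not at hcon
    have h1 := centralises_of_pow ρ hinj B hBk hcon (c := c₀) hBinv (j := orderOf (mk c₀)) (by
      intro b _
      have h2 : c₀ ^ orderOf (mk c₀) ∈ center G := by
        rw [← hker, map_pow, pow_orderOf_eq_one]
      rw [mul_assoc, Subgroup.mem_center_iff.1 h2 b, inv_mul_cancel_left]) (by
      intro p hp hp4 hpd
      have h2 : p ≤ 4 := hp4.trans hd
      have h3 : p ∣ 6 := by
        have h4 := hp.two_le
        interval_cases p
        · norm_num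
        · norm_num
        · exact absurd hp (by decide)
      have h4 := Nat.dvd_gcd hpd h3
      rw [h.cop.gcd_eq_one] at h4
      exact hp.one_lt.ne' (Nat.dvd_one.1 h4))
    -- `c` centralises `A`
    have h2 : ∀ (i : ℕ), ∀ a ∈ A, mk c₀ ^ i * a * (mk c₀ ^ i)⁻¹ = a := by
      intro i a ha
      have h3 : Commute (mk c₀) a := by
        obtain ⟨b, rfl⟩ := hsurj a
        have h4 := h1 b ha
        have h5 : b * c₀ = c₀ * b := by
          calc b * c₀ = c₀ * (c₀⁻¹ * b * c₀) := by group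
            _ = c₀ * b := by rw [h4]
        show mk c₀ * mk b = mk b * mk c₀
        rw [← map_mul, ← map_mul, h5]
      rw [(h3.pow_left i).eq, mul_inv_cancel_right]
    -- two elements
    have h3 : ∃ a ∈ A, a ≠ 1 ∧ ∃ b ∈ A, b ≠ 1 ∧ b ≠ a := by
      by_contra hcon2
      push Not at hcon2
      by_cases hA1 : ∀ a ∈ A, a = 1
      · have : A = ⊥ := by
          rw [eq_bot_iff]
          intro a ha
          exact Subgroup.mem_bot.2 (hA1 a ha)
        rw [this, Subgroup.card_bot] at h8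
        omega
      · push Not at hA1
        obtain ⟨a, ha, ha1⟩ := hA1
        have h4 : (A : Set (G ⧸ center G)) ⊆ {1, a} := by
          intro b hb
          by_cases hb1 : b = 1
          · exact Or.inl hb1
          · exact Or.inr (hcon2 a ha ha1 b hb hb1)
        have h5 := Set.ncard_le_ncard h4 (Set.toFinite _)
        have h6 : (A : Set (G ⧸ center G)).ncard = Nat.card A := (Nat.card_coe_set_eq _).symm
        have h7 := Set.ncard_pair (Ne.symm ha1)
        omega
    obtain ⟨a, ha, ha1, b, hb, hb1, hba⟩ := h3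
    obtain ⟨i, hi⟩ := h.trans a ha b hb ha1 hb1
    rw [h2 i a ha] at hi
    exact hba hi.symm
  have hcomm : ∀ x ∈ B, ∀ y ∈ B, ⁅x, y⁆ ∈ center G := by
    intro x hx y hy
    rw [← hker, map_commutatorElement, commutatorElement_eq_one_iff_mul_comm]
    exact hAab _ hx _ hy
  have htwo : ∀ x ∈ B, x * x ∈ center G := by
    intro x hx
    rw [← hker, map_mul]
    exact h.sq _ hx
  have hZ : ∀ x ∈ B, (∀ y ∈ B, x * y = y * x) → x ∈ center G := by
    intro x hx hxy
    by_contra hxZ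
    obtain ⟨a, ha, b, hb, hab⟩ := hna
    apply hab
    have hx1 : mk x ≠ 1 := fun h1 => hxZ ((hker x).1 h1)
    by_cases ha1 : mk a = 1
    · exact (Subgroup.mem_center_iff.1 ((hker a).1 ha1) b).symm
    obtain ⟨i, hi⟩ := h.trans (mk x) hx (mk a) ha hx1 ha1
    -- `a = c^i x c^-i z`
    have h1 : (c₀ ^ i * x * (c₀ ^ i)⁻¹)⁻¹ * a ∈ center G := by
      rw [← hker, map_mul, map_inv, map_mul, map_mul, map_inv, map_pow, hi, inv_mul_cancel]
    set z := (c₀ ^ i * x * (c₀ ^ i)⁻¹)⁻¹ * a with hz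
    have h2 : a = c₀ ^ i * x * (c₀ ^ i)⁻¹ * z := by rw [hz]; group
    have h3 : (c₀ ^ i)⁻¹ * b * c₀ ^ i ∈ B := by
      have key : ∀ (j : ℕ), ∀ b ∈ B, (c₀ ^ j)⁻¹ * b * c₀ ^ j ∈ B := by
        intro j
        induction j with
        | zero => intro b hb; rwa [pow_zero, inv_one, one_mul, mul_one]
        | succ j ih =>
          intro b hb
          have h4 := hBinv _ (ih b hb)
          have h5 : (c₀ ^ (j + 1))⁻¹ * b * c₀ ^ (j + 1) = c₀⁻¹ * ((c₀ ^ j)⁻¹ * b * c₀ ^ j) * c₀ := by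
            rw [pow_succ]; group
          rw [h5]
          exact h4
      exact key i b hb
    have h4 := hxy _ h3
    have h5 : c₀ ^ i * x * (c₀ ^ i)⁻¹ * b = b * (c₀ ^ i * x * (c₀ ^ i)⁻¹) := by
      calc c₀ ^ i * x * (c₀ ^ i)⁻¹ * b = c₀ ^ i * (x * ((c₀ ^ i)⁻¹ * b * c₀ ^ i)) * (c₀ ^ i)⁻¹ := by group
        _ = c₀ ^ i * (((c₀ ^ i)⁻¹ * b * c₀ ^ i) * x) * (c₀ ^ i)⁻¹ := by rw [h4]
        _ = _ := by group
    have h6 := Subgroup.mem_center_iff.1 h1 b
    rw [h2]
    calc c₀ ^ i * x * (c₀ ^ i)⁻¹ * z * b = c₀ ^ i * x * (c₀ ^ i)⁻¹ * (z * b) := by group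
      _ = c₀ ^ i * x * (c₀ ^ i)⁻¹ * (b * z) := by rw [h6]
      _ = (c₀ ^ i * x * (c₀ ^ i)⁻¹ * b) * z := by group
      _ = b * (c₀ ^ i * x * (c₀ ^ i)⁻¹) * z := by rw [h5]
      _ = _ := by group
  obtain ⟨ε, hε⟩ := exists_cl ρ hinj B hsc hcomm htwo hZ hna
  -- the order
  have hcq := card_quot_le ρ hinj B hsc hcomm hZ
  have hcard : Nat.card (B ⧸ (center G).subgroupOf B) = Nat.card A := by
    let φ : B →* A := (mk.comp B.subtype).codRestrict A (fun b => b.2)
    have hφs : Function.Surjective φ := by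
      rintro ⟨a, ha⟩
      obtain ⟨b, rfl⟩ := hsurj a
      exact ⟨⟨b, ha⟩, rfl⟩
    have hφk : φ.ker = (center G).subgroupOf B := by
      ext b
      rw [MonoidHom.mem_ker, Subgroup.mem_subgroupOf, ← hker]
      constructor
      · intro h1; exact congrArg Subtype.val h1
      · intro h1; exact Subtype.ext h1
    rw [← hφk]
    exact Nat.card_congr (QuotientGroup.quotientKerEquivOfSurjective φ hφs).toEquiv
  have h16 : 2 ^ m ≤ 16 := by
    rw [← hmcard, ← hcard]
    exact hcq.trans (Nat.mul_le_mul hd hd)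
  have hm : m = 3 := pow_odd_le hmodd hm3 h16
  apply hε.card_ne_eight
  rw [hcard, hmcard, hm]
  norm_num

end Cfsg.Agent.H574.Deg4
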