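import Cfsg.Agent.H574.Deg4.Irr
import Cfsg.Agent.GpLn.Rank

/-!
# Two `t`-elements of small rank in a group of order prime to three and the characteristic (helper574)

* `isPGroup_of_gen` : `G` a finite linear group of order prime to three and the characteristic, generated by two `t`-elements
  `z`, `z'` with `rank (z - 1) ≤ 2`, `rank (z' - 1) ≤ 2`, `t ≥ 5` prime: `G` is a `t`-group.
-/

set_option autoImplicit false

namespace Cfsg.Agent.H574.Deg4

open Module Cfsg.Agent.H189.Wt Cfsg.Agent.H189.FTRep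
open Cfsg.Agent.GpLn.Rank (Inv exists_compl)

universe u v w

variable {k : Type u} {V : Type v} {G : Type w} [Field k] [AddCommGroup V] [Module k V] [Group G]

/-- an abelian group generated by `t`-elements is a `t`-group -/
theorem isPGroup_of_comm {t : ℕ} (S : Set G) (hS : ∀ z ∈ S, ∃ n, z ^ t ^ n = 1)
    (hgen : Subgroup.closure S = ⊤) (hc : ∀ a b : G, a * b = b * a) : IsPGroup t G := by
  intro g
  have hg : g ∈ Subgroup.closure S := by rw [hgen]; exact Subgroup.mem_top g
  induction hg using Subgroup.closure_induction with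
  | mem x hx => exact hS x hx
  | one => exact ⟨0, one_pow _⟩
  | mul x y _ _ hx hy =>
    obtain ⟨a, ha⟩ := hx
    obtain ⟨b, hb⟩ := hy
    refine ⟨a + b, ?_⟩
    have h1 : x ^ t ^ (a + b) = 1 := by rw [pow_add, pow_mul, ha, one_pow]
    have h2 : y ^ t ^ (a + b) = 1 := by rw [pow_add, mul_comm, pow_mul, hb, one_pow]
    rw [(show Commute x y from hc x y).mul_pow, h1, h2, one_mul]
  | inv x _ hx =>
    obtain ⟨a, ha⟩ := hx
    exact ⟨a, by rw [inv_pow, ha, inv_one]⟩

/-- minimal invariant subspaces -/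
def MinInv (ρ : G →* End k V) (M : Submodule k V) : Prop :=
  Inv ρ M ∧ M ≠ ⊥ ∧ ∀ U ≤ M, Inv ρ U → U = ⊥ ∨ U = M

theorem exists_minInv [FiniteDimensional k V] (ρ : G →* End k V) : ∀ (n : ℕ) (W : Submodule k V), finrank k W ≤ n →
    Inv ρ W → W ≠ ⊥ → ∃ M ≤ W, MinInv ρ M := by
  intro n
  induction n with
  | zero =>
    intro W h0 _ hW
    exact absurd (Submodule.finrank_eq_zero.1 (Nat.le_zero.1 h0)) hW
  | succ n ih =>
    intro W hn hWi hW
    by_cases h : ∀ U ≤ W, Inv ρ U → U = ⊥ ∨ U = W
    · exact ⟨W, le_refl _, hWi, hW, h⟩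
    · push Not at h
      obtain ⟨U, hUW, hUi, hU0, hU1⟩ := h
      have hlt : finrank k U < finrank k W := Submodule.finrank_lt_finrank_of_lt (lt_of_le_of_ne hUW hU1)
      obtain ⟨M, hM, hM'⟩ := ih U (by omega) hUi hU0
      exact ⟨M, hM.trans hUW, hM'⟩

/-- the representation on an invariant subspace -/
def res (ρ : G →* End k V) {M : Submodule k V} (hM : Inv ρ M) : G →* End k M where
  toFun g := (ρ g).restrict (hM g)
  map_one' := by
    ext v
    rw [LinearMap.coe_restrict_apply, map_one]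
    rfl
  map_mul' a b := by
    ext v
    rw [LinearMap.coe_restrict_apply, map_mul]
    rfl

theorem res_apply (ρ : G →* End k V) {M : Submodule k V} (hM : Inv ρ M) (g : G) (v : M) :
    ((res ρ hM g v : M) : V) = ρ g v := rfl

theorem inv_of_closure [Finite G] (ρ : G →* End k V) (S : Set G) (hgen : Subgroup.closure S = ⊤) (M : Submodule k V)
    (hS : ∀ z ∈ S, ∀ v ∈ M, ρ z v ∈ M) : Inv ρ M := by
  intro g
  have hg : g ∈ Subgroup.closure S := by rw [hgen]; exact Subgroup.mem_top g
  induction hg using Subgroup.closure_induction with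
  | mem x hx => exact hS x hx
  | one =>
    intro v hv
    rw [map_one]
    exact hv
  | mul x y _ _ hx hy =>
    intro v hv
    rw [map_mul]
    exact hx _ (hy _ hv)
  | inv x _ hx =>
    have h1 : ∀ n : ℕ, ∀ v ∈ M, ρ (x ^ n) v ∈ M := by
      intro n
      induction n with
      | zero => intro v hv; rw [pow_zero, map_one]; exact hv
      | succ n ih =>
        intro v hv
        rw [pow_succ, map_mul]
        exact ih _ (hx _ hv)
    have h2 : x⁻¹ = x ^ (Nat.card G - 1) := by
      rw [inv_eq_iff_mul_eq_one, ← pow_succ', Nat.sub_add_cancel Nat.card_pos, pow_card_eq_one']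
    rw [h2]
    exact h1 _

theorem minInv_fix [IsAlgClosed k] [FiniteDimensional k V] [Finite G] (ρ : G →* End k V)
    (h3 : ¬ 3 ∣ Nat.card G) (hk : (Nat.card G : k) ≠ 0) {t : ℕ} (ht : t.Prime)
    (h5 : 5 ≤ t) {z z' : G} (hz : ∃ n, z ^ t ^ n = 1) (hz' : ∃ n, z' ^ t ^ n = 1)
    (hr : finrank k (LinearMap.range (ρ z - 1)) ≤ 2) (hr' : finrank k (LinearMap.range (ρ z' - 1)) ≤ 2)
    (hgen : Subgroup.closure {z, z'} = (⊤ : Subgroup G)) {M : Submodule k V} (hM : MinInv ρ M) (g : G) :
    ∀ v ∈ M, ρ (g ^ t ^ (Nat.card G).factorization t) v = v := by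
  classical
  obtain ⟨hMi, hM0, hMm⟩ := hM
  have hsub : ∀ y : G, M.map (ρ y - 1) ≤ M := by
    rintro y _ ⟨v, hv, rfl⟩
    exact sub_mem (hMi y v hv) hv
  set R : Submodule k V := M.map (ρ z - 1) ⊔ M.map (ρ z' - 1) with hR
  have hRM : R ≤ M := sup_le (hsub z) (hsub z')
  have hstep : ∀ y : G, M.map (ρ y - 1) ≤ R → ∀ v ∈ R, ρ y v ∈ R := by
    intro y hy v hv
    have h1 : ρ y v = (ρ y - 1) v + v := by
      rw [LinearMap.sub_apply, End.one_apply, sub_add_cancel]
    rw [h1]
    exact add_mem (hy ⟨v, hRM hv, rfl⟩) hv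
  have hRi : Inv ρ R := by
    refine inv_of_closure ρ {z, z'} hgen R ?_
    rintro y (rfl | rfl)
    · exact hstep _ le_sup_left
    · exact hstep _ le_sup_right
  rcases hMm R hRM hRi with h0 | h1
  · -- trivial action
    have hfix : ∀ y ∈ ({z, z'} : Set G), ∀ v ∈ M, ρ y v = v := by
      have key : ∀ y : G, M.map (ρ y - 1) ≤ R → ∀ v ∈ M, ρ y v = v := by
        intro y hy v hv
        have h1 : (ρ y - 1) v ∈ R := hy ⟨v, hv, rfl⟩
        rw [h0, Submodule.mem_bot] at h1
        exact sub_eq_zero.1 h1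
      rintro y (rfl | rfl)
      · exact key _ le_sup_left
      · exact key _ le_sup_right
    have hker : (res ρ hMi).ker = ⊤ := by
      rw [eq_top_iff, ← hgen, Subgroup.closure_le]
      intro y hy
      show y ∈ (res ρ hMi).ker
      rw [MonoidHom.mem_ker]
      ext v
      rw [res_apply, hfix y hy v v.2]
      rfl
    intro v hv
    have h2 : g ^ t ^ (Nat.card G).factorization t ∈ (res ρ hMi).ker := by rw [hker]; trivial
    rw [MonoidHom.mem_ker] at h2
    have h3 := congrArg (fun f : End k M => ((f ⟨v, hv⟩ : M) : V)) h2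
    exact h3
  · -- small dimension
    have hdim : finrank k M ≤ 4 := by
      rw [← h1, hR]
      have h2 : ∀ y : G, finrank k (M.map (ρ y - 1)) ≤ finrank k (LinearMap.range (ρ y - 1)) := by
        intro y
        exact Submodule.finrank_mono LinearMap.map_le_range
      have h3 := Submodule.finrank_add_le_finrank_add_finrank (M.map (ρ z - 1)) (M.map (ρ z' - 1))
      have h4 := h2 z
      have h5 := h2 z'
      omega
    set K : Subgroup G := (res ρ hMi).ker with hK
    let σ : G ⧸ K →* End k M := QuotientGroup.lift K (res ρ hMi) (le_refl _)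
    have hσ : ∀ y : G, σ (QuotientGroup.mk' K y) = res ρ hMi y := fun y => rfl
    have hsurj : Function.Surjective (QuotientGroup.mk' K) := QuotientGroup.mk'_surjective _
    have hσi : Function.Injective σ := by
      rw [injective_iff_map_eq_one]
      intro a ha
      obtain ⟨y, rfl⟩ := hsurj a
      rw [hσ] at ha
      exact (QuotientGroup.eq_one_iff y).2 (MonoidHom.mem_ker.2 ha)
    have hirr : Irr σ := by
      refine ⟨(Submodule.nontrivial_iff_ne_bot).2 hM0, ?_⟩
      intro U hU
      have hUi : Inv ρ (U.map M.subtype) := by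
        rintro y _ ⟨v, hv, rfl⟩
        refine ⟨res ρ hMi y v, ?_, rfl⟩
        have := hU (QuotientGroup.mk' K y) v hv
        rwa [hσ] at this
      rcases hMm _ (Submodule.map_subtype_le M U) hUi with h | h
      · left
        rw [eq_bot_iff]
        intro v hv
        have h2 : (v : V) ∈ U.map M.subtype := ⟨v, hv, rfl⟩
        rw [h, Submodule.mem_bot] at h2
        rw [Submodule.mem_bot]
        exact Subtype.ext h2
      · right
        rw [eq_top_iff]
        intro v _
        have h2 : (v : V) ∈ U.map M.subtype := by rw [h]; exact v.2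
        obtain ⟨u, hu, huv⟩ := h2
        have h3 : u = v := Subtype.ext huv
        rwa [← h3]
    have hcard : Nat.card (G ⧸ K) ∣ Nat.card G := Subgroup.card_quotient_dvd_card K
    have hgen' : Subgroup.closure {QuotientGroup.mk' K z, QuotientGroup.mk' K z'} = (⊤ : Subgroup (G ⧸ K)) := by
      rw [← Set.image_pair, ← MonoidHom.map_closure, hgen, Subgroup.map_top_of_surjective _ hsurj]
    have hSt : ∀ y ∈ ({QuotientGroup.mk' K z, QuotientGroup.mk' K z'} : Set (G ⧸ K)), ∃ n, y ^ t ^ n = 1 := by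
      rintro y (rfl | rfl)
      · obtain ⟨n, hn⟩ := hz
        exact ⟨n, by rw [← map_pow, hn, map_one]⟩
      · obtain ⟨n, hn⟩ := hz'
        exact ⟨n, by rw [← map_pow, hn, map_one]⟩
    have hrk : ∀ y : G, finrank k (LinearMap.range (ρ y - 1)) ≤ 2 →
        finrank k (LinearMap.range (σ (QuotientGroup.mk' K y) - 1)) ≤ 2 := by
      intro y hy
      rw [hσ]
      refine le_trans ?_ hy
      rw [← Submodule.finrank_map_subtype_eq]
      apply Submodule.finrank_mono
      rintro _ ⟨_, ⟨v, rfl⟩, rfl⟩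
      exact ⟨(v : V), rfl⟩
    have hcomm := irr_comm σ hσi hirr hdim (fun h => h3 (h.trans hcard)) (by
      intro h0
      apply hk
      obtain ⟨e, he⟩ := hcard
      rw [he, Nat.cast_mul, h0, zero_mul]) ht h5 _ hSt (by
      rintro y (rfl | rfl)
      · exact hrk z hr
      · exact hrk z' hr') hgen'
    have hP := isPGroup_of_comm _ hSt hgen' hcomm
    intro v hv
    have htf : Fact t.Prime := ⟨ht⟩
    obtain ⟨b, hb⟩ := (IsPGroup.iff_orderOf.1 hP) (QuotientGroup.mk' K g)
    have hle : b ≤ (Nat.card G).factorization t := by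
      rw [← ht.pow_dvd_iff_le_factorization Nat.card_pos.ne', ← hb]
      exact (orderOf_dvd_natCard _).trans hcard
    have h4 : QuotientGroup.mk' K (g ^ t ^ (Nat.card G).factorization t) = 1 := by
      rw [map_pow, ← orderOf_dvd_iff_pow_eq_one, hb]
      exact pow_dvd_pow _ hle
    have h5 : g ^ t ^ (Nat.card G).factorization t ∈ K := (QuotientGroup.eq_one_iff _).1 h4
    rw [hK, MonoidHom.mem_ker] at h5
    exact congrArg (fun f : End k M => ((f ⟨v, hv⟩ : M) : V)) h5

/-- **two `t`-elements of rank at most two generate a `t`-group** -/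
theorem isPGroup_of_gen [IsAlgClosed k] [FiniteDimensional k V] [Finite G] (ρ : G →* End k V)
    (hinj : Function.Injective ρ) (h3 : ¬ 3 ∣ Nat.card G) (hk : (Nat.card G : k) ≠ 0) {t : ℕ} (ht : t.Prime)
    (h5 : 5 ≤ t) {z z' : G} (hz : ∃ n, z ^ t ^ n = 1) (hz' : ∃ n, z' ^ t ^ n = 1)
    (hr : finrank k (LinearMap.range (ρ z - 1)) ≤ 2) (hr' : finrank k (LinearMap.range (ρ z' - 1)) ≤ 2)
    (hgen : Subgroup.closure {z, z'} = (⊤ : Subgroup G)) : IsPGroup t G := by
  classical
  intro g
  refine ⟨(Nat.card G).factorization t, ?_⟩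
  apply hinj
  rw [map_one]
  -- the socle
  let W : Submodule k V := sSup {M | MinInv ρ M}
  have hWi : Inv ρ W := by
    intro y v hv
    have h1 : W ≤ W.comap (ρ y) := by
      refine sSup_le fun M hM v hv => ?_
      exact (le_sSup (show M ∈ {M | MinInv ρ M} from hM)) (hM.1 y v hv)
    exact h1 hv
  obtain ⟨W', hW'i, hWW'⟩ := exists_compl ρ hk W hWi
  have hW'0 : W' = ⊥ := by
    by_contra h0
    obtain ⟨M, hMW', hM⟩ := exists_minInv ρ _ W' (le_refl _) hW'i h0
    apply hM.2.1
    rw [eq_bot_iff, ← hWW'.inf_eq_bot]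
    exact le_inf (le_sSup (show M ∈ {M | MinInv ρ M} from hM)) hMW'
  have hWt : W = ⊤ := by
    have := hWW'.sup_eq_top
    rwa [hW'0, sup_bot_eq] at this
  have hWE : W ≤ LinearMap.ker (ρ (g ^ t ^ (Nat.card G).factorization t) - 1) := by
    refine sSup_le fun M hM v hv => ?_
    rw [LinearMap.mem_ker, LinearMap.sub_apply, End.one_apply, sub_eq_zero]
    exact minInv_fix ρ h3 hk ht h5 hz hz' hr hr' hgen hM g v hv
  ext v
  have h1 : v ∈ LinearMap.ker (ρ (g ^ t ^ (Nat.card G).factorization t) - 1) := hWE (hWt ▸ Submodule.mem_top)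
  rw [LinearMap.mem_ker, LinearMap.sub_apply, End.one_apply, sub_eq_zero] at h1
  rw [h1]
  rfl

end Cfsg.Agent.H574.Deg4
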