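import Cfsg.Agent.H574.Deg4.Orb
import Cfsg.Agent.H189.FTRep

/-!
# No extraspecial normal subgroup of order `2 ^ (1 + 4)` (helper574)

* `linInd_quot` : the elements of `N / Z` are linearly independent operators;
* `five_le_finrank` : the centraliser of an operator `T ≠ 1` of a 4-dimensional space with `rank (T - 1) ≤ 2` has dimension
  at least five;
* `not_sixteen`.
-/

set_option autoImplicit false

namespace Cfsg.Agent.H574.Deg4

open Module Cfsg.Agent.H189.Wt Cfsg.Agent.H189.FTRep
open Subgroup (center)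
open scoped commutatorElement

universe u v w

variable {k : Type u} {V : Type v} {G : Type w} [Field k] [AddCommGroup V] [Module k V] [Group G]

/-- the number of cosets of the centre: linear independence -/
theorem linInd_quot [FiniteDimensional k V] [Nontrivial V] [Finite G] (ρ : G →* End k V)
    (hinj : Function.Injective ρ) (N : Subgroup G)
    (hsc : ∀ z ∈ center G, ∃ c : k, ∀ v, ρ z v = c • v)
    (hcomm : ∀ x ∈ N, ∀ y ∈ N, ⁅x, y⁆ ∈ center G)
    (hZ : ∀ x ∈ N, (∀ y ∈ N, x * y = y * x) → x ∈ center G) :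
    LinearIndependent k (fun i : N ⧸ (center G).subgroupOf N => ρ (i.out : G)) := by
  classical
  -- scalar of a commutator
  have h1 : ∀ (y x : N), ∃ c : k, ρ ⁅(y : G), (x : G)⁆ = c • (1 : End k V) := by
    intro y x
    obtain ⟨c, hc⟩ := hsc _ (hcomm y y.2 x x.2)
    refine ⟨c, ?_⟩
    ext v
    rw [hc, LinearMap.smul_apply, End.one_apply]
  choose c hc using h1
  let f : N → End k (End k V) := fun y => LinearMap.mulLeft k (ρ y) * LinearMap.mulRight k (ρ (y : G)⁻¹)
  refine linearIndependent_of_wt (M := End k V) f (fun i : N ⧸ (center G).subgroupOf N => ρ (i.out : G))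
    (fun i y => c y i.out) ?_ ?_ ?_
  · intro i j hij
    have h2 : ∀ y : N, ⁅(y : G), (i.out : G)⁆ = ⁅(y : G), (j.out : G)⁆ := by
      intro y
      apply hinj
      have h3 := congrFun hij y
      change c y i.out = c y j.out at h3
      rw [hc, hc, h3]
    have h3 : (i.out : G)⁻¹ * (j.out : G) ∈ center G := by
      apply hZ _ (mul_mem (inv_mem i.out.2) j.out.2)
      intro y hy
      have h4 := h2 ⟨y⁻¹, inv_mem hy⟩
      change ⁅y⁻¹, (i.out : G)⁆ = ⁅y⁻¹, (j.out : G)⁆ at h4
      rw [commutatorElement_def, commutatorElement_def, inv_inv] at h4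
      have h5 : (i.out : G) * y * (i.out : G)⁻¹ = (j.out : G) * y * (j.out : G)⁻¹ := by
        have h6 := congrArg (fun t => y * t) h4
        simpa [mul_assoc] using h6
      calc (i.out : G)⁻¹ * (j.out : G) * y
          = (i.out : G)⁻¹ * ((j.out : G) * y * (j.out : G)⁻¹) * (j.out : G) := by group
        _ = y * ((i.out : G)⁻¹ * (j.out : G)) := by rw [← h5]; group
    have h4 : i.out⁻¹ * j.out ∈ (center G).subgroupOf N := h3
    rw [← QuotientGroup.eq, QuotientGroup.out_eq', QuotientGroup.out_eq'] at h4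
    exact h4
  · intro i h
    obtain ⟨v, hv⟩ := exists_ne (0 : V)
    apply ne_zero ρ (i.out : G) hv
    change ρ (i.out : G) = 0 at h
    rw [h, LinearMap.zero_apply]
  · intro i y
    change ρ y * (ρ (i.out : G) * ρ (y : G)⁻¹) = c y i.out • ρ (i.out : G)
    have h2 : c y i.out • ρ (i.out : G) = ρ ⁅(y : G), (i.out : G)⁆ * ρ (i.out : G) := by
      rw [hc, smul_mul_assoc, one_mul]
    rw [h2, ← map_mul, ← map_mul, ← map_mul, commutatorElement_def]
    congr 1
    group

/-- the centraliser of an operator -/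
def cen (T : End k V) : Submodule k (End k V) := LinearMap.ker (LinearMap.mulLeft k T - LinearMap.mulRight k T)

theorem mem_cen {T X : End k V} : X ∈ cen T ↔ T * X = X * T := by
  unfold cen
  rw [LinearMap.mem_ker, LinearMap.sub_apply, LinearMap.mulLeft_apply, LinearMap.mulRight_apply, sub_eq_zero]

/-- the centraliser of an operator of small rank -/
theorem five_le_finrank [FiniteDimensional k V] {T : End k V} (hd : finrank k V = 4) (hT : T ≠ 1)
    (hr : finrank k (LinearMap.range (T - 1)) ≤ 2) : 5 ≤ finrank k (cen T) := by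
  set W := LinearMap.range (T - 1) with hW
  set U := LinearMap.ker (T - 1) with hU
  have hmemU : ∀ u : V, u ∈ U ↔ T u = u := by
    intro u
    rw [hU, LinearMap.mem_ker, LinearMap.sub_apply, End.one_apply, sub_eq_zero]
  have hWT : ∀ v : V, T v - v ∈ W := fun v => ⟨v, rfl⟩
  let Ψ : ((V ⧸ W →ₗ[k] U) × k) →ₗ[k] cen T :=
    LinearMap.codRestrict (cen T)
      { toFun := fun p => U.subtype ∘ₗ p.1 ∘ₗ W.mkQ + p.2 • (1 : End k V)
        map_add' := fun p q => by
          ext v
          simp only [Prod.fst_add, Prod.snd_add, LinearMap.add_apply, LinearMap.comp_apply, LinearMap.smul_apply,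
            End.one_apply, map_add, add_smul]
          abel
        map_smul' := fun c p => by
          ext v
          simp only [Prod.smul_fst, Prod.smul_snd, LinearMap.add_apply, LinearMap.comp_apply, LinearMap.smul_apply,
            End.one_apply, map_smul, smul_eq_mul, mul_smul, RingHom.id_apply, smul_add] }
      (fun p => by
        rw [mem_cen]
        ext v
        show T (((p.1 (W.mkQ v) : U) : V) + p.2 • v) = ((p.1 (W.mkQ (T v)) : U) : V) + p.2 • T v
        have h1 : W.mkQ (T v) = W.mkQ v := by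
          rw [← sub_eq_zero, ← map_sub, Submodule.mkQ_apply, Submodule.Quotient.mk_eq_zero]
          exact hWT v
        rw [map_add, map_smul, h1, (hmemU _).1 (p.1 (W.mkQ v)).2])
  have hΨ : ∀ (p : (V ⧸ W →ₗ[k] U) × k) (v : V), ((Ψ p : cen T) : End k V) v = ((p.1 (W.mkQ v) : U) : V) + p.2 • v :=
    fun p v => rfl
  have hinj : Function.Injective Ψ := by
    rw [← LinearMap.ker_eq_bot, LinearMap.ker_eq_bot']
    rintro ⟨f, c⟩ h0
    have h1 : ∀ v : V, ((f (W.mkQ v) : U) : V) + c • v = 0 := by
      intro v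
      have := hΨ (f, c) v
      rw [h0] at this
      exact this.symm
    have hc : c = 0 := by
      by_contra hc
      apply hT
      ext v
      rw [End.one_apply, ← hmemU]
      have h2 : c • v ∈ U := by
        have h3 : c • v = -((f (W.mkQ v) : U) : V) := eq_neg_of_add_eq_zero_right (h1 v)
        rw [h3]
        exact U.neg_mem (f (W.mkQ v)).2
      have h3 := U.smul_mem c⁻¹ h2
      rwa [smul_smul, inv_mul_cancel₀ hc, one_smul] at h3
    have hf : f = 0 := by
      apply LinearMap.ext
      intro y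
      obtain ⟨v, rfl⟩ := W.mkQ_surjective y
      apply Subtype.ext
      have h2 := h1 v
      rw [hc, zero_smul, add_zero] at h2
      exact h2
    rw [hf, hc]
    rfl
  have h1 := LinearMap.finrank_le_finrank_of_injective hinj
  refine le_trans ?_ h1
  rw [Module.finrank_prod, Module.finrank_linearMap, Module.finrank_self]
  have h2 : finrank k (V ⧸ W) + finrank k W = finrank k V := Submodule.finrank_quotient_add_finrank W
  have h3 : finrank k W + finrank k U = finrank k V := LinearMap.finrank_range_add_finrank_ker (T - 1)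
  have h4 : 2 ≤ finrank k (V ⧸ W) := by omega
  have h5 : 2 ≤ finrank k U := by omega
  have h6 : 2 * 2 ≤ finrank k (V ⧸ W) * finrank k U := Nat.mul_le_mul h4 h5
  omega

/-- **no normal subgroup of extraspecial type moved by `z`** -/
theorem not_sixteen [FiniteDimensional k V] [Finite G] (ρ : G →* End k V) (hinj : Function.Injective ρ)
    (hd : finrank k V = 4) (N : Subgroup G) [hN : N.Normal]
    (hsc : ∀ z ∈ center G, ∃ c : k, ∀ v, ρ z v = c • v)
    (hcomm : ∀ x ∈ N, ∀ y ∈ N, ⁅x, y⁆ ∈ center G)
    (hZ : ∀ x ∈ N, (∀ y ∈ N, x * y = y * x) → x ∈ center G)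
    (h16 : Nat.card (N ⧸ (center G).subgroupOf N) = 16) {z : G} {t n : ℕ} (ht : t.Prime) (h5 : 5 ≤ t)
    (hzt : z ^ t ^ n = 1) (hr : finrank k (LinearMap.range (ρ z - 1)) ≤ 2)
    (hne : ∃ x ∈ N, z * x * z⁻¹ * x⁻¹ ∉ center G) : False := by
  classical
  have hnt : Nontrivial V := nontrivial_of_finrank_pos (R := k) (by omega)
  set Z' := (center G).subgroupOf N with hZ'
  have hli := linInd_quot ρ hinj N hsc hcomm hZ
  have : Fintype (N ⧸ Z') := Fintype.ofFinite _
  have hcard : Fintype.card (N ⧸ Z') = finrank k (End k V) := by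
    rw [← Nat.card_eq_fintype_card, h16, Module.finrank_linearMap, hd]
  let b : Basis (N ⧸ Z') k (End k V) := basisOfLinearIndependentOfCardEqFinrank hli hcard
  have hb : ∀ c, b c = ρ (c.out : G) := fun c => by
    rw [coe_basisOfLinearIndependentOfCardEqFinrank]
  -- the automorphism
  have hmap : Z'.map (MulAut.conjNormal z : MulAut N).toMonoidHom = Z' := by
    apply le_antisymm
    · rintro _ ⟨x, hx, rfl⟩
      show z * (x : G) * z⁻¹ ∈ center G
      have h1 : (x : G) ∈ center G := hx
      have h2 := Subgroup.mem_center_iff.1 h1 z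
      rw [h2, mul_inv_cancel_right]
      exact h1
    · intro x hx
      have h1 : (x : G) ∈ center G := hx
      refine ⟨x, hx, ?_⟩
      apply Subtype.ext
      show z * (x : G) * z⁻¹ = x
      rw [Subgroup.mem_center_iff.1 h1 z, mul_inv_cancel_right]
  let σ : MulAut (N ⧸ Z') := QuotientGroup.congr Z' Z' (MulAut.conjNormal z) hmap
  have hσ : ∀ x : N, σ (x : N ⧸ Z') = ((MulAut.conjNormal z x : N) : N ⧸ Z') := fun x => rfl
  have hσpow : ∀ (m : ℕ) (x : N), (σ ^ m) (x : N ⧸ Z') = ((MulAut.conjNormal (z ^ m) x : N) : N ⧸ Z') := by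
    intro m
    induction m with
    | zero =>
      intro x
      rw [pow_zero, pow_zero, map_one]
      rfl
    | succ m ih =>
      intro x
      rw [pow_succ', pow_succ', MulAut.mul_apply, ih, hσ, map_mul]
      rfl
  have hσt : σ ^ t ^ n = 1 := by
    apply MulEquiv.ext
    intro c
    obtain ⟨x, rfl⟩ := QuotientGroup.mk_surjective c
    rw [hσpow, hzt, map_one]
    rfl
  have hσne : σ ≠ 1 := by
    intro h1
    obtain ⟨x, hx, hxz⟩ := hne
    apply hxz
    have h2 := hσ ⟨x, hx⟩
    rw [h1, MulAut.one_apply, QuotientGroup.eq] at h2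
    have h3 : x⁻¹ * (z * x * z⁻¹) ∈ center G := h2
    have h4 := Subgroup.mem_center_iff.1 h3 x
    have h5 : z * x * z⁻¹ * x⁻¹ = x⁻¹ * (z * x * z⁻¹) := by
      have h6 : z * x * z⁻¹ = x⁻¹ * (z * x * z⁻¹) * x := by rw [← h4]; group
      rw [mul_inv_eq_iff_eq_mul]
      exact h6
    rw [h5]
    exact h3
  have horb := card_orbits_le h16 ht h5 hσt hσne
  have hz1 : ρ z ≠ 1 := by
    intro h1
    obtain ⟨x, hx, hxz⟩ := hne
    have h2 : z = 1 := hinj (by rw [h1, map_one])
    apply hxz
    rw [h2, one_mul, inv_one, mul_one, mul_inv_cancel]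
    exact one_mem _
  have h5le := five_le_finrank hd hz1 hr
  -- conjugation by `z` permutes the lines
  have hzeta : ∀ c : N ⧸ Z', ∃ s : k, s ≠ 0 ∧ ρ z * b c * ρ z⁻¹ = s • b (σ c) := by
    intro c
    obtain ⟨x, hx⟩ : ∃ x : N, x = c.out := ⟨_, rfl⟩
    have hcx : c = (x : N ⧸ Z') := by rw [hx]; exact (QuotientGroup.out_eq' c).symm
    obtain ⟨y, hy⟩ := QuotientGroup.mk_out_eq_mul Z' (MulAut.conjNormal z x)
    have hy2 : ((y : N) : G) ∈ center G := y.2
    obtain ⟨s, hs⟩ := hsc _ hy2
    have h1 : ρ ((y : N) : G) = s • (1 : End k V) := by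
      ext v
      rw [hs, LinearMap.smul_apply, End.one_apply]
    have hs0 : s ≠ 0 := by
      rintro rfl
      obtain ⟨v, hv⟩ := exists_ne (0 : V)
      apply ne_zero ρ ((y : N) : G) hv
      rw [hs, zero_smul]
    have h2 : σ c = ((MulAut.conjNormal z x : N) : N ⧸ Z') := by rw [hcx, hσ]
    have h3 : b (σ c) = ρ (z * (x : G) * z⁻¹ * ((y : N) : G)) := by
      rw [hb, h2, hy]
      rfl
    refine ⟨s⁻¹, inv_ne_zero hs0, ?_⟩
    rw [hb, ← hx, h3, map_mul, h1, mul_smul_comm, mul_one, smul_smul, inv_mul_cancel₀ hs0, one_smul, map_mul, map_mul]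
  choose s hs0 hs using hzeta
  -- the coordinates of an element of the centraliser
  have hcoord : ∀ X ∈ cen (ρ z), ∀ c, b.repr X (σ c) = s c * b.repr X c := by
    intro X hX c
    rw [mem_cen] at hX
    have h1 : ρ z * X * ρ z⁻¹ = X := by
      rw [hX, mul_assoc, ← map_mul, mul_inv_cancel, map_one, mul_one]
    have h2 : X = ∑ c, b.repr X c • b c := (b.sum_repr X).symm
    have h3 : X = ∑ c, (b.repr X c * s c) • b (σ c) := by
      calc X = ρ z * X * ρ z⁻¹ := h1.symm
        _ = ρ z * (∑ c, b.repr X c • b c) * ρ z⁻¹ := by rw [← h2]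
        _ = _ := by
          rw [Finset.mul_sum, Finset.sum_mul]
          refine Finset.sum_congr rfl fun c _ => ?_
          rw [mul_smul_comm, smul_mul_assoc, hs, smul_smul]
    have h4 : X = ∑ c, (b.repr X (σ.symm c) * s (σ.symm c)) • b c := by
      conv_lhs => rw [h3]
      refine Fintype.sum_equiv σ.toEquiv _ _ fun c => ?_
      show _ = (b.repr X (σ.symm (σ c)) * s (σ.symm (σ c))) • b (σ c)
      rw [MulEquiv.symm_apply_apply]
    have h5 : b.repr X = b.repr (∑ c, (b.repr X (σ.symm c) * s (σ.symm c)) • b c) := by rw [← h4]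
    have h6 := DFunLike.congr_fun h5 (σ c)
    rw [b.repr_sum_self, MulEquiv.symm_apply_apply] at h6
    rw [h6, mul_comm]
  -- vanishing on orbits
  have hvan : ∀ X ∈ cen (ρ z), ∀ (g : Subgroup.zpowers σ) (c : N ⧸ Z'), b.repr X c = 0 → b.repr X (g • c) = 0 := by
    intro X hX g
    obtain ⟨g, hg⟩ := g
    have hfin : Finite (MulAut (N ⧸ Z')) := inferInstance
    obtain ⟨m, rfl⟩ := (mem_powers_iff_mem_zpowers (x := σ)).2 hg
    show ∀ c, b.repr X c = 0 → b.repr X ((σ ^ m) c) = 0
    induction m with
    | zero => intro c hc; exact hc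
    | succ m ih =>
      intro c hc
      rw [pow_succ', MulAut.mul_apply, hcoord X hX, ih (pow_mem (Subgroup.mem_zpowers σ) m) c hc, mul_zero]
  set Ω := MulAction.orbitRel.Quotient (Subgroup.zpowers σ) (N ⧸ Z')
  have : Fintype Ω := Fintype.ofFinite Ω
  let ev : cen (ρ z) →ₗ[k] (Ω → k) :=
    { toFun := fun X ω => b.repr (X : End k V) ω.out
      map_add' := fun X Y => by
        funext ω
        simp
      map_smul' := fun c X => by
        funext ω
        simp }
  have hevinj : Function.Injective ev := by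
    rw [← LinearMap.ker_eq_bot, LinearMap.ker_eq_bot']
    intro X hX
    apply Subtype.ext
    have h1 : b.repr (X : End k V) = 0 := by
      ext c
      have h2 : b.repr (X : End k V) (Quotient.mk'' c : Ω).out = 0 := congrFun hX (Quotient.mk'' c : Ω)
      have h3 : c ∈ MulAction.orbit (Subgroup.zpowers σ) (Quotient.mk'' c : Ω).out := by
        have h4 : (Quotient.mk'' (Quotient.mk'' c : Ω).out : Ω) = Quotient.mk'' c := Quotient.out_eq' _
        exact MulAction.orbitRel_apply.1 (Quotient.eq''.1 h4.symm)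
      obtain ⟨g, hg⟩ := h3
      rw [← hg, Finsupp.zero_apply]
      exact hvan _ X.2 g _ h2
    exact b.repr.map_eq_zero_iff.1 h1
  have h6 := LinearMap.finrank_le_finrank_of_injective hevinj
  rw [Module.finrank_fintype_fun_eq_card, ← Nat.card_eq_fintype_card] at h6
  omega

end Cfsg.Agent.H574.Deg4
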