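import Cfsg.Agent.H98.SzBasic
import Cfsg.Agent.OddCyclic.ClaimC.SzIso
import Cfsg.Agent.ThreePrime.Main

/-!
# A Frobenius subgroup of the simple groups of order prime to three (helper574)

* `Frob G A c` : `A` is an elementary abelian 2-group of order `2 ^ m`, `m` odd, `m ≥ 3`, `c` has order prime to 6,
  normalises `A` and is transitive on its nonidentity elements;
* `exists_frob_suzuki`, `exists_frob` : every nonabelian simple group of order prime to three has one.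
-/

set_option autoImplicit false

namespace Cfsg.Agent.H574.Deg4

open Cfsg Cfsg.Agent.LieExceptional Cfsg.Agent.LieExceptional.SuzukiBasic Cfsg.Agent.LieExceptional.SuzukiSylow
open Cfsg.Agent.H98.SzBasic

/-- `A` is an elementary abelian 2-group of order `2 ^ m`, `m` odd, `m ≥ 3`, `c` has order prime to 6,
normalises `A` and is transitive on its nonidentity elements -/
structure Frob {G : Type*} [Group G] (A : Subgroup G) (c : G) : Prop where
  card : ∃ m : ℕ, Odd m ∧ 3 ≤ m ∧ Nat.card A = 2 ^ m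
  sq : ∀ a ∈ A, a * a = 1
  nrm : ∀ a ∈ A, c * a * c⁻¹ ∈ A
  cop : (orderOf c).Coprime 6
  trans : ∀ a ∈ A, ∀ b ∈ A, a ≠ 1 → b ≠ 1 → ∃ i : ℕ, c ^ i * a * (c ^ i)⁻¹ = b

theorem Frob.map {G H : Type*} [Group G] [Group H] {A : Subgroup G} {c : G} (h : Frob A c) (f : G →* H)
    (hf : Function.Injective f) : Frob (A.map f) (f c) where
  card := by
    obtain ⟨m, h1, h2, h3⟩ := h.card
    exact ⟨m, h1, h2, by rw [← h3]; exact Nat.card_congr (A.equivMapOfInjective f hf).symm.toEquiv⟩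
  sq := by
    rintro _ ⟨a, ha, rfl⟩
    rw [← map_mul, h.sq a ha, map_one]
  nrm := by
    rintro _ ⟨a, ha, rfl⟩
    exact ⟨c * a * c⁻¹, h.nrm a ha, by rw [map_mul, map_mul, map_inv]⟩
  cop := by rw [orderOf_injective f hf]; exact h.cop
  trans := by
    rintro _ ⟨a, ha, rfl⟩ _ ⟨b, hb, rfl⟩ h1 h2
    obtain ⟨i, hi⟩ := h.trans a ha b hb (fun e => h1 (by rw [e, map_one])) (fun e => h2 (by rw [e, map_one]))
    exact ⟨i, by rw [← hi, map_mul, map_mul, map_inv, map_pow]⟩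

section Suzuki

variable {F : Type*} [Field F] [Fintype F] {m : ℕ}

theorem coprime_six (m : ℕ) : (2 ^ (2 * m + 1) - 1).Coprime 6 := by
  have h1 : ∀ m : ℕ, (2 ^ (2 * m + 1)) % 6 = 2 := by
    intro m
    induction m with
    | zero => rfl
    | succ m ih =>
      have : 2 ^ (2 * (m + 1) + 1) = 4 * 2 ^ (2 * m + 1) := by ring
      rw [this, Nat.mul_mod, ih]
  have h2 := h1 m
  generalize 2 ^ (2 * m + 1) = x at h2
  have h3 : (x - 1) % 6 = 1 := by omega
  rw [Nat.coprime_iff_gcd_eq_one, Nat.gcd_comm, Nat.gcd_rec, h3]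
  rfl

theorem exists_frob_sz (hm : 1 ≤ m) (hF : Fintype.card F = 2 ^ (2 * m + 1)) :
    ∃ (A : Subgroup (Cfsg.Sz F m)) (c : Cfsg.Sz F m), Frob A c := by
  classical
  have hch : CharP F 2 := Cfsg.Agent.LieExceptional.SuzukiBasic.charP_two hF
  obtain ⟨κ, hκ⟩ := IsCyclic.exists_generator (α := Fˣ)
  let A : Subgroup (Cfsg.Sz F m) :=
    { carrier := {g | ∃ b, g = u hF 0 b}
      mul_mem' := by
        rintro _ _ ⟨b, rfl⟩ ⟨d, rfl⟩
        refine ⟨b + d, ?_⟩
        rw [u_mul]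
        simp
      one_mem' := ⟨0, (u_zero_zero hF).symm⟩
      inv_mem' := by
        rintro _ ⟨b, rfl⟩
        refine ⟨b, ?_⟩
        rw [u_inv, zero_pow (by positivity), add_zero] }
  have hconj : ∀ (k : Fˣ) (b : F), h hF k * u hF 0 b * (h hF k)⁻¹ = u hF 0 ((k : F) ^ (2 ^ (m + 1) + 1) * b) := by
    intro k b
    rw [h_mul_u, mul_zero, mul_inv_cancel_right]
  have hpow : ∀ i : ℕ, h hF κ ^ i = h hF (κ ^ i) := by
    intro i
    induction i with
    | zero => rw [pow_zero, pow_zero, h_one]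
    | succ i ih => rw [pow_succ, pow_succ, ih, h_mul]
  refine ⟨A, h hF κ, ⟨2 * m + 1, ⟨m, rfl⟩, by omega, ?_⟩, ?_, ?_, ?_, ?_⟩
  · rw [← hF, ← Nat.card_eq_fintype_card]
    refine (Nat.card_congr (Equiv.ofBijective (fun b : F => (⟨u hF 0 b, b, rfl⟩ : A)) ⟨?_, ?_⟩)).symm
    · intro b d e
      exact ((u_eq_iff hF _ _ _ _).1 (congrArg Subtype.val e)).2
    · rintro ⟨_, b, rfl⟩
      exact ⟨b, rfl⟩
  · rintro _ ⟨b, rfl⟩
    rw [u_mul, ← u_zero_zero hF]
    congr 1
    · simp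
    · rw [zero_pow (by positivity), zero_mul, add_zero, CharTwo.add_self_eq_zero]
  · rintro _ ⟨b, rfl⟩
    exact ⟨_, hconj κ b⟩
  · have h1 : orderOf (h hF κ) ∣ 2 ^ (2 * m + 1) - 1 := by
      apply orderOf_dvd_of_pow_eq_one
      have h2 : κ ^ (2 ^ (2 * m + 1) - 1) = 1 := by
        rw [← hF, ← Fintype.card_units]
        exact pow_card_eq_one
      rw [hpow, h2, h_one]
    exact Nat.Coprime.coprime_dvd_left h1 (coprime_six m)
  · rintro _ ⟨a, rfl⟩ _ ⟨b, rfl⟩ ha hb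
    have ha0 : a ≠ 0 := by
      rintro rfl
      exact ha (u_zero_zero hF)
    have hb0 : b ≠ 0 := by
      rintro rfl
      exact hb (u_zero_zero hF)
    obtain ⟨k, hk0, hk⟩ := exists_pow_sigma_add_one hF (b * a⁻¹) (mul_ne_zero hb0 (inv_ne_zero ha0))
    obtain ⟨i, hi⟩ := (mem_powers_iff_mem_zpowers (x := κ)).2 (hκ (Units.mk0 k hk0))
    have hi' : κ ^ i = Units.mk0 k hk0 := hi
    refine ⟨i, ?_⟩
    rw [hpow, hi', hconj]
    congr 1
    show k ^ (2 ^ (m + 1) + 1) * a = b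
    rw [hk, mul_assoc, inv_mul_cancel₀ ha0, mul_one]

theorem exists_frob_suzuki {G : Type*} [Group G] (h : Cfsg.Lie.IsoSuzuki G) :
    ∃ (A : Subgroup G) (c : G), Frob A c := by
  obtain ⟨F, _, _, m, hm, hF, ⟨e⟩⟩ := h
  obtain ⟨e'⟩ := Cfsg.Agent.OddCyclic.ClaimC.SzIso.iso hm hF
  obtain ⟨A, c, hA⟩ := exists_frob_sz hm hF
  exact ⟨_, _, hA.map (e'.trans e.symm).toMonoidHom (e'.trans e.symm).injective⟩

end Suzuki

/-- **a Frobenius subgroup of a nonabelian simple group of order prime to three** -/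
theorem exists_frob {G : Type*} [Group G] [Finite G] [IsSimpleGroup G] (hna : ∃ a b : G, a * b ≠ b * a)
    (h3 : ¬ 3 ∣ Nat.card G) : ∃ (A : Subgroup G) (c : G), Frob A c :=
  exists_frob_suzuki (Cfsg.Agent.ThreePrime.Main.isoSuzuki hna h3)

end Cfsg.Agent.H574.Deg4
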